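import Cfsg.Agent.Lib.E8Small.CertData
import Mathlib

/-!
Soundness of the certificates: no nonnegative orbit multiplicities give a target count.
-/

set_option autoImplicit false
set_option linter.unusedSectionVars false

namespace CfsgLib.E8Small

/-- A linear form on a list. -/
def dotL : List ℤ → List ℕ → ℤ
  | a :: y, b :: c => a * (b : ℤ) + dotL y c
  | _, _ => 0

theorem dotL_nil : ∀ y : List ℤ, dotL y [] = 0
  | [] => rfl
  | _ :: _ => rfl

/-- The least value of a linear form over a box. -/
def minL (y : List ℤ) : List (List ℕ) → List ℕ → List ℕ → ℤ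
  | v :: V, l :: lo, h :: hi =>
      (if 0 ≤ dotL y v then dotL y v * (l : ℤ) else dotL y v * (h : ℤ)) + minL y V lo hi
  | _, _, _ => 0

/-- A linear combination of count vectors, at one place. -/
def comb : List (List ℕ) → (ℕ → ℕ) → ℕ → ℕ
  | [], _, _ => 0
  | v :: V, m, i => m 0 * v.getD i 0 + comb V (fun j => m (j + 1)) i

/-- The check of a tree. -/
def checkT (V : List (List ℕ)) (t : List ℕ) : Tree → List ℕ → List ℕ → Bool
  | .leaf y, lo, hi => decide (dotL y t < minL y V lo hi)
  | .branch j v l r, lo, hi =>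
      checkT V t l lo (hi.set j v) && checkT V t r (lo.set j (v + 1)) hi

theorem dotL_eq : ∀ (y : List ℤ) (c : List ℕ),
    dotL y c = ∑ i ∈ Finset.range y.length, y.getD i 0 * (c.getD i 0 : ℤ)
  | [], c => by simp [dotL]
  | a :: y, [] => by simp [dotL]
  | a :: y, b :: c => by
    rw [dotL, dotL_eq y c, List.length_cons, Finset.sum_range_succ']
    simp [add_comm]

theorem minL_le (y : List ℤ) : ∀ (V : List (List ℕ)) (lo hi : List ℕ) (m : ℕ → ℕ),
    lo.length = V.length → hi.length = V.length →
    (∀ j < V.length, lo.getD j 0 ≤ m j ∧ m j ≤ hi.getD j 0) →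
    minL y V lo hi ≤ ∑ i ∈ Finset.range y.length, y.getD i 0 * (comb V m i : ℤ)
  | [], lo, hi, m, _, _, _ => by simp [minL, comb]
  | v :: V, [], hi, m, h1, _, _ => by simp at h1
  | v :: V, l :: lo, [], m, _, h2, _ => by simp at h2
  | v :: V, l :: lo, h :: hi, m, h1, h2, hb => by
    have ih := minL_le y V lo hi (fun j => m (j + 1)) (by simpa using h1) (by simpa using h2)
      fun j hj => by
        have := hb (j + 1) (by simpa using hj)
        simpa using this
    have h0 := hb 0 (by simp)
    simp only [List.getD_cons_zero] at h0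
    have e : ∑ i ∈ Finset.range y.length, y.getD i 0 * (comb (v :: V) m i : ℤ) =
        dotL y v * (m 0 : ℤ) + ∑ i ∈ Finset.range y.length,
          y.getD i 0 * (comb V (fun j => m (j + 1)) i : ℤ) := by
      rw [dotL_eq, Finset.sum_mul, ← Finset.sum_add_distrib]
      refine Finset.sum_congr rfl fun i _ => ?_
      simp only [comb]
      push_cast
      ring
    rw [e, minL]
    refine add_le_add ?_ ih
    split_ifs with hc
    · exact mul_le_mul_of_nonneg_left (by exact_mod_cast h0.1) hc
    · exact mul_le_mul_of_nonpos_left (by exact_mod_cast h0.2) (le_of_not_ge hc)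

theorem getD_set_cases (l : List ℕ) (j v k : ℕ) :
    (l.set j v).getD k 0 = l.getD k 0 ∨ (k = j ∧ (l.set j v).getD k 0 = v) := by
  by_cases hk : k = j
  · subst hk
    by_cases hl : k < l.length
    · exact Or.inr ⟨rfl, by rw [List.getD_eq_getElem _ _ (by simpa using hl), List.getElem_set_self]⟩
    · exact Or.inl (by rw [List.set_eq_of_length_le (not_lt.1 hl)])
  · exact Or.inl (by simp [List.getD_eq_getElem?_getD, List.getElem?_set, Ne.symm hk])

theorem checkT_sound {V : List (List ℕ)} {t : List ℕ} : ∀ (T : Tree) (lo hi : List ℕ),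
    lo.length = V.length → hi.length = V.length → checkT V t T lo hi = true →
    ∀ m : ℕ → ℕ, (∀ j < V.length, lo.getD j 0 ≤ m j ∧ m j ≤ hi.getD j 0) →
    (∀ i, comb V m i = t.getD i 0) → False
  | .leaf y, lo, hi, h1, h2, hc, m, hm, he => by
    simp only [checkT, decide_eq_true_eq] at hc
    have h := minL_le y V lo hi m h1 h2 hm
    rw [dotL_eq] at hc
    simp only [he] at h
    omega
  | .branch j v l r, lo, hi, h1, h2, hc, m, hm, he => by
    simp only [checkT, Bool.and_eq_true] at hc
    by_cases hv : m j ≤ v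
    · refine checkT_sound l lo (hi.set j v) h1 (by simpa using h2) hc.1 m (fun k hk => ?_) he
      rcases getD_set_cases hi j v k with e | ⟨rfl, e⟩
      · rw [e]; exact hm k hk
      · rw [e]; exact ⟨(hm k hk).1, hv⟩
    · refine checkT_sound r (lo.set j (v + 1)) hi (by simpa using h1) h2 hc.2 m (fun k hk => ?_) he
      rcases getD_set_cases lo j (v + 1) k with e | ⟨rfl, e⟩
      · rw [e]; exact hm k hk
      · rw [e]; exact ⟨Nat.lt_of_not_le hv, (hm k hk).2⟩

/-- The initial upper bounds. -/
def hi0 (D : List ℕ) : List ℕ := D.map (248 / ·)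

/-- All certificates hold. -/
def certsB (V : List (List ℕ)) (D : List ℕ) (C : List (List ℕ × Tree)) : Bool :=
  C.all fun c => checkT V c.1 c.2 (List.replicate V.length 0) (hi0 D)

theorem certs73_ok : certsB vecs73 dims73 certs73 = true := by decide +kernel

theorem certs61_ok : certsB vecs61 dims61 certs61 = true := by decide +kernel

theorem certsB_sound {V : List (List ℕ)} {D : List ℕ} {C : List (List ℕ × Tree)}
    (hB : certsB V D C = true) (hlen : D.length = V.length) {c : List ℕ × Tree} (hc : c ∈ C)
    (m : ℕ → ℕ) (hm : ∀ j < V.length, m j ≤ (hi0 D).getD j 0)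
    (he : ∀ i, comb V m i = c.1.getD i 0) : False :=
  checkT_sound c.2 (List.replicate V.length 0) (hi0 D) (by simp) (by simp [hi0, hlen])
    (List.all_eq_true.1 hB c hc) m
    (fun j hj => ⟨by simp [List.getD_eq_getElem?_getD, hj], hm j hj⟩) he

end CfsgLib.E8Small
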