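import Cfsg.Agent.Lib.E8Small.Spectrum

/-!
The packed spectra of the elements of orders 73 and 61, and the orders of the group at those primes.
-/

set_option autoImplicit false
set_option linter.unusedSectionVars false
set_option maxRecDepth 100000

open Matrix Polynomial

namespace CfsgLib.E8Small

open Cfsg.Lie CfsgLib.Chevalley

/-- The torus of order 73 squared. -/
def tor73 : Tor 73 := ⟨word73, vec73_0, vec73_1, res73_0, res73_1, trace73_0, trace73_1⟩

/-- The torus of order 61 squared. -/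
def tor61 : Tor 61 := ⟨word61, vec61_0, vec61_1, res61_0, res61_1, trace61_0, trace61_1⟩

theorem tor73_ok : tor73.okB = true := by decide +kernel

theorem tor61_ok : tor61.okB = true := by decide +kernel

theorem card_group_three : Nat.card (chevE8.group (ZMod 3)) =
    3 ^ 120 * (([2, 8, 12, 14, 18, 20, 24, 30] : List ℕ).map fun e => 3 ^ e - 1).prod := by
  have h := cardE8 (F := ZMod 3)
  rw [one_mul, ZMod.card] at h
  rw [h]
  rfl

theorem ord73 : ¬ 73 ^ 3 ∣ Nat.card (chevE8.group (ZMod 3)) := by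
  rw [card_group_three]
  decide +kernel

theorem ord61 : ¬ 61 ^ 3 ∣ Nat.card (chevE8.group (ZMod 3)) := by
  rw [card_group_three]
  decide +kernel

/-- A table packed in nibbles. -/
def nib (P r : ℕ) : ℕ := (P >>> (4 * r)) &&& 15

/-- The packed table of a list. -/
def toNib : List ℕ → ℕ
  | [] => 0
  | a :: l => a + 16 * toNib l

/-- The packed count of the eigenvalues of a torus element. -/
def codeAt (C p : ℕ) (r0 r1 : List ℕ) (a b : ℕ) : ℕ :=
  8 + (List.zipWith (fun x y => 2 ^ (16 * nib C ((a * x + b * y) % p))) r0 r1).sum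

/-- The first member of each class of nonzero residues. -/
def lams (cls : List ℕ) : List ℕ := (List.range 6).map fun i => cls.findIdx fun c => c == i + 1

/-- The check of all packed counts, up to multiplication by powers of three. -/
def codesB (C p : ℕ) (r0 r1 cls S : List ℕ) : Bool :=
  r0.length == 240 && r1.length == 240 && cls.length == p && (cls.getD 0 0 == 0) &&
    (List.range p).all (fun x => nib C x == cls.getD x 0) &&
    (List.range p).all (fun x => nib C (3 * x % p) == nib C x) &&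
    (List.range p).all (fun a => a == 0 ||
      (List.range 12).any fun j => (lams cls).any fun l => 3 ^ j * l % p == a) &&
    (lams cls).all (fun l => S.contains (codeAt C p r0 r1 0 l) &&
      (List.range p).all fun b => S.contains (codeAt C p r0 r1 l b))

theorem nib_pow {C p : ℕ} (h : ∀ x < p, nib C (3 * x % p) = nib C x) (hp : 0 < p) :
    ∀ j x : ℕ, nib C (3 ^ j * x % p) = nib C (x % p)
  | 0, x => by rw [pow_zero, one_mul]
  | j + 1, x => by
    rw [pow_succ', mul_assoc, ← Nat.mul_mod_mod, h _ (Nat.mod_lt _ hp), nib_pow h hp j x]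

theorem codeAt_scale {C p : ℕ} (h : ∀ x < p, nib C (3 * x % p) = nib C x) (hp : 0 < p)
    (r0 r1 : List ℕ) {a b a' b' j : ℕ} (ea : 3 ^ j * a' % p = a % p) (eb : 3 ^ j * b' % p = b % p) :
    codeAt C p r0 r1 a b = codeAt C p r0 r1 a' b' := by
  rw [codeAt, codeAt]
  congr 3
  funext x y
  rw [← nib_pow h hp j (a' * x + b' * y), mul_add, ← mul_assoc, ← mul_assoc,
    Nat.add_mod (3 ^ j * a' * x), Nat.mul_mod (3 ^ j * a'), ea, Nat.mul_mod (3 ^ j * b'), eb,
    ← Nat.mul_mod, ← Nat.mul_mod, ← Nat.add_mod]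

theorem codes73_ok : codesB (toNib cls73) 73 res73_0 res73_1 cls73 spectra73 = true := by
  decide +kernel

theorem codes61_ok : codesB (toNib cls61) 61 res61_0 res61_1 cls61 spectra61 = true := by
  decide +kernel

theorem code_mem {p : ℕ} (hp : 0 < p) (h3p : ¬ 3 ∣ p) {P : Tor p} {C : ℕ} {cls S : List ℕ}
    (h : codesB C p P.r0 P.r1 cls S = true) {a b : ℕ} (ha : a < p) (hb : b < p) (hab : a ≠ 0 ∨ b ≠ 0) :
    (Finset.univ.val.map fun x : chevE8.Idx => 65536 ^ cls.getD (P.res a b x) 0).sum ∈ S := by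
  simp only [codesB, Bool.and_eq_true, beq_iff_eq, List.all_eq_true, List.mem_range, Bool.or_eq_true,
    List.contains_iff_mem] at h
  simp only [List.any_eq_true, List.mem_range, beq_iff_eq] at h
  obtain ⟨⟨⟨⟨⟨⟨⟨h0, h1⟩, -⟩, hc0⟩, hC⟩, h3⟩, hlam⟩, hall⟩ := h
  have hmem : codeAt C p P.r0 P.r1 a b ∈ S := by
    by_cases hA : a = 0
    · subst hA
      obtain ⟨j, -, l, hl, e⟩ := (hlam b hb).resolve_left (by omega)
      rw [codeAt_scale h3 hp P.r0 P.r1 (a' := 0) (b' := l) (j := j) (by rw [mul_zero])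
        (by rw [e, Nat.mod_eq_of_lt hb])]
      exact (hall l hl).1
    · obtain ⟨j, -, l, hl, e⟩ := (hlam a ha).resolve_left hA
      obtain ⟨b', hb', eb⟩ : ∃ b' < p, 3 ^ j * b' % p = b := by
        haveI : NeZero p := ⟨hp.ne'⟩
        have hu : IsUnit (((3 ^ j : ℕ)) : ZMod p) := by
          refine (ZMod.isUnit_iff_coprime _ _).2 ?_
          exact (Nat.Coprime.pow_left j ((Nat.prime_three.coprime_iff_not_dvd).2 h3p))
        obtain ⟨u, hu⟩ := hu
        refine ⟨((u⁻¹ : (ZMod p)ˣ) * (b : ZMod p)).val, ZMod.val_lt _, ?_⟩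
        rw [← Nat.mod_eq_of_lt hb]
        refine (ZMod.natCast_eq_natCast_iff' _ _ _).1 ?_
        rw [Nat.cast_mul, ZMod.natCast_zmod_val, ← hu, Units.mul_inv_cancel_left, Nat.mod_eq_of_lt hb]
      rw [codeAt_scale h3 hp P.r0 P.r1 (a' := l) (b' := b') (j := j)
        (by rw [e, Nat.mod_eq_of_lt ha]) (by rw [eb, Nat.mod_eq_of_lt hb])]
      exact (hall l hl).2 b' hb' 
  convert hmem using 1
  show ∑ x : chevE8.Idx, 65536 ^ cls.getD (P.res a b x) 0 = _
  rw [Fintype.sum_sum_type, codeAt]
  refine congrArg₂ (· + ·) ?_ ?_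
  · show ∑ _x : Fin chevE8.rank, 65536 ^ cls.getD (0 : ℕ) 0 = 8
    rw [hc0, pow_zero, Finset.sum_const, smul_eq_mul, mul_one, Finset.card_univ, Fintype.card_fin]
    decide
  · rw [show List.zipWith (fun x y => 2 ^ (16 * nib C ((a * x + b * y) % p))) P.r0 P.r1 =
        List.ofFn (fun s : Fin chevE8.nroots =>
          2 ^ (16 * nib C ((a * P.r0.getD s 0 + b * P.r1.getD s 0) % p))) from
      List.ext_getElem (by
        rw [List.length_zipWith, h0, h1, List.length_ofFn, min_self]
        decide) fun i hi hi' => by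
        simp only [List.length_zipWith, h0, h1, min_self] at hi
        rw [List.getElem_zipWith, List.getElem_ofFn, List.getD_eq_getElem _ _ (h0.symm ▸ hi),
          List.getD_eq_getElem _ _ (h1.symm ▸ hi)], List.sum_ofFn]
    refine Finset.sum_congr rfl fun s _ => ?_
    rw [hC _ (Nat.mod_lt _ hp), ← show (2 : ℕ) ^ 16 = 65536 by norm_num, ← pow_mul]
    rfl

end CfsgLib.E8Small
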