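import Cfsg.Agent.Lib.E8Small.Weights
import Cfsg.Agent.Lib.E8Small.SpectrumList
import Cfsg.Agent.Lib.InvCentralizers.ChevInvolution.ClassesE8
import Mathlib.LinearAlgebra.Matrix.ProjectiveSpecialLinearGroup
import Mathlib.FieldTheory.IsAlgClosed.Basic

/-!
No subgroup of the group of type E8 over the field with three elements is isomorphic to PSL(2, 243)
or to PSL(2, 729): the weights of the adjoint module on such a subgroup do not match the
eigenvalues of the elements of order 73 or 61 and of order 2.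
-/

set_option autoImplicit false
set_option linter.unusedSectionVars false
set_option linter.style.haveILetI false
set_option maxRecDepth 100000
set_option maxHeartbeats 1000000

open Matrix Polynomial
open scoped MatrixGroups

namespace CfsgLib.E8Small

open Cfsg.Lie CfsgLib.Chevalley
open CfsgLib.InvCentralizers.ChevInvolution (invElem sgn even chi_sgn isConj_or)

instance charP_Ω : CharP Ω 3 :=
  charP_of_injective_algebraMap (algebraMap (ZMod 3) Ω).injective 3

theorem neg_one_ne_one_Ω : (-1 : Ω) ≠ 1 :=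
  Ring.neg_one_ne_one_of_char_ne_two (by rw [ringChar.eq Ω 3]; norm_num)

theorem exists_primitive {m : ℕ} (hm : ¬ 3 ∣ m) : ∃ α : Ω, IsPrimitiveRoot α m := by
  haveI : NeZero (m : Ω) := ⟨fun h => hm ((CharP.cast_eq_zero_iff Ω 3 m).1 h)⟩
  exact HasEnoughRootsOfUnity.exists_primitiveRoot Ω m

/-- Equal multisets of powers of a primitive root give equal multisets of residues. -/
theorem residues_of_roots {S T K : Type*} [Field K] {m : ℕ} [NeZero m] {α : K}
    (hα : IsPrimitiveRoot α m) {A : Multiset S} {B : Multiset T} (f : S → ℤ) (g : T → ℤ)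
    (h : A.map (fun x => α ^ f x) = B.map (fun x => α ^ g x)) :
    A.map (fun x => f x % (m : ℤ)) = B.map (fun x => g x % (m : ℤ)) := by
  classical
  let inv : K → ℤ := fun x => if hx : ∃ r < m, α ^ r = x then ((hx.choose : ℕ) : ℤ) else 0
  have key : ∀ z : ℤ, inv (α ^ z) = z % (m : ℤ) := by
    intro z
    have hm0 : (m : ℤ) ≠ 0 := by exact_mod_cast NeZero.ne m
    have h0 : 0 ≤ z % (m : ℤ) := Int.emod_nonneg z hm0
    have hlt : (z % (m : ℤ)).toNat < m := by
      have := Int.emod_lt_of_pos z (show (0 : ℤ) < m by exact_mod_cast Nat.pos_of_ne_zero (NeZero.ne m))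
      omega
    have hz : α ^ (z % (m : ℤ)).toNat = α ^ z := by
      rw [← zpow_natCast, Int.toNat_of_nonneg h0]
      conv_rhs => rw [← Int.emod_add_mul_ediv z m]
      rw [zpow_add₀ (hα.ne_zero (NeZero.ne m)), _root_.zpow_mul, zpow_natCast, hα.pow_eq_one,
        _root_.one_zpow, mul_one]
    have hex : ∃ r < m, α ^ r = α ^ z := ⟨_, hlt, hz⟩
    simp only [inv, dif_pos hex]
    rw [hα.pow_inj hex.choose_spec.1 hlt (hex.choose_spec.2.trans hz.symm), Int.toNat_of_nonneg h0]
  have := congrArg (fun M : Multiset K => M.map inv) h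
  simpa only [Multiset.map_map, Function.comp_def, key] using this

theorem roots_prod {S : Type*} (A : Multiset S) (f : S → Ω) :
    (A.map fun x => X - C (f x)).prod.roots = A.map f := by
  have := Polynomial.roots_multiset_prod_X_sub_C (A.map f)
  rwa [Multiset.map_map] at this

theorem toΩ_eq_map (g : chevE8.group (ZMod 3)) :
    ∃ M : Matrix chevE8.Idx chevE8.Idx (ZMod 3), toΩ g = M.map (algebraMap (ZMod 3) Ω) :=
  ⟨((g : GL chevE8.Idx (ZMod 3)) : Matrix chevE8.Idx chevE8.Idx (ZMod 3)), rfl⟩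

theorem roots_cube (g : chevE8.group (ZMod 3)) :
    (toΩ g).charpoly.roots.map (· ^ 3) = (toΩ g).charpoly.roots := by
  obtain ⟨M, hM⟩ := toΩ_eq_map g
  rw [hM, show M.map (algebraMap (ZMod 3) Ω) = M.map ⇑(algebraMap (ZMod 3) Ω) from rfl,
    Matrix.charpoly_map]
  set P := M.charpoly.map (algebraMap (ZMod 3) Ω)
  have h := Polynomial.roots_map_of_injective_of_card_eq_natDegree
    (frobenius Ω 3).injective (p := P) (IsAlgClosed.card_roots_eq_natDegree (p := P))
  rw [Polynomial.map_map, Subsingleton.elim ((frobenius Ω 3).comp (algebraMap (ZMod 3) Ω))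
    (algebraMap (ZMod 3) Ω)] at h
  exact h

/-- The number of eigenvalues `-1` of a torus involution. -/
noncomputable def negCount (b : ℕ) : ℕ :=
  ∑ s : Fin chevE8.nroots, if even chevE8 auxE8 b s then 0 else 1

theorem negCounts : (negCount InvCentralizers.ChevInvolution.E8.bitS = 112 ∨
      negCount InvCentralizers.ChevInvolution.E8.bitS = 128) ∧
    (negCount InvCentralizers.ChevInvolution.E8.bitT = 112 ∨
      negCount InvCentralizers.ChevInvolution.E8.bitT = 128) := by
  decide +kernel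

/-- The eigenvalues of an involution. -/
theorem exists_inv_spectrum {g : chevE8.group (ZMod 3)} (hg : orderOf g = 2) :
    ∃ f : chevE8.Idx → ℕ, (∑ x, f x = 112 ∨ ∑ x, f x = 128) ∧ (∀ x, f x ≤ 1) ∧
      (toΩ g).charpoly = ∏ x, (X - C ((-1 : Ω) ^ f x)) := by
  classical
  have hodd : Odd (Fintype.card (ZMod 3)) := by rw [ZMod.card]; decide
  have key : ∀ b, (negCount b = 112 ∨ negCount b = 128) → IsConj g (invElem fullE8 (ZMod 3) b) →
      ∃ f : chevE8.Idx → ℕ, (∑ x, f x = 112 ∨ ∑ x, f x = 128) ∧ (∀ x, f x ≤ 1) ∧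
      (toΩ g).charpoly = ∏ x, (X - C ((-1 : Ω) ^ f x)) := by
    intro b hb hc
    refine ⟨Sum.elim (fun _ => 0) fun s => if even chevE8 auxE8 b s then 0 else 1, ?_, ?_, ?_⟩
    · rw [Fintype.sum_sum_type]
      simpa [negCount] using hb
    · rintro (x | x)
      · exact Nat.zero_le 1
      · simp only [Sum.elim_inr]
        split_ifs <;> omega
    · obtain ⟨c, hcg⟩ := isConj_iff.1 hc
      have e : g = c⁻¹ * invElem fullE8 (ZMod 3) b * c := by rw [← hcg]; group
      rw [toΩ, e, map_mul, map_mul, map_inv, Units.val_mul, Units.val_mul, Matrix.coe_units_inv,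
        Matrix.charpoly_units_conj',
        show ((Twist.emb chevE8 (ZMod 3) Ω (invElem fullE8 (ZMod 3) b) : GL chevE8.Idx Ω) :
          Matrix chevE8.Idx chevE8.Idx Ω) =
          ((torusHom chevE8 (ZMod 3) (sgn chevE8 (ZMod 3) b) : GL chevE8.Idx (ZMod 3)) :
            Matrix chevE8.Idx chevE8.Idx (ZMod 3)).map (algebraMap (ZMod 3) Ω) from rfl,
        coe_torusHom, Matrix.diagonal_map (map_zero _), Matrix.charpoly_diagonal]
      refine Finset.prod_congr rfl fun x _ => ?_
      rcases x with x | x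
      · simp
      · simp only [Sum.elim_inr, chi_sgn fullE8.cert b x.isLt]
        split_ifs <;> simp
  rcases isConj_or fullE8 InvCentralizers.ChevInvolution.E8.invData hodd injective_torusHom
    InvCentralizers.ChevInvolution.E8.cover hg with h | h
  · exact key _ negCounts.1 h
  · exact key _ negCounts.2 h

section Group

variable {F : Type*} [Field F] [Fintype F] (ι : F →+* Ω)

theorem mapM_injective : Function.Injective (mapM ι : SL(2, F) → Matrix (Fin 2) (Fin 2) Ω) :=
  fun a b e => Subtype.ext (Matrix.map_injective ι.injective e)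

theorem mapM_neg_one {g : SL(2, F)} (h : mapM ι g = -1) :
    g ∈ Subgroup.center (SL(2, F)) := by
  rw [Matrix.SpecialLinearGroup.mem_center_iff]
  have e : (g : Matrix (Fin 2) (Fin 2) F) = -1 := Matrix.map_injective ι.injective (by
    change (g : Matrix (Fin 2) (Fin 2) F).map ι = _
    rw [← mapM_apply, h]
    ext i j
    by_cases hij : i = j <;> simp [hij])
  refine ⟨-1, by norm_num, ?_⟩
  rw [e]
  ext i j
  by_cases hij : i = j <;> simp [Matrix.scalar_apply, hij]

/-- An element with a given eigenvalue. -/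
theorem exists_elt {n : ℕ} (hF : Fintype.card F = 3 ^ n) {α : Ωˣ}
    (hα : (α : Ω) ^ (3 ^ n - 1) = 1 ∨ (α : Ω) ^ (3 ^ n + 1) = 1) :
    ∃ (g : SL(2, F)) (P : GL (Fin 2) Ω),
      mapM ι g = (P : Matrix (Fin 2) (Fin 2) Ω) * Matrix.diagonal ![(α : Ω), ((α⁻¹ : Ωˣ) : Ω)] *
        ((P⁻¹ : GL (Fin 2) Ω) : Matrix (Fin 2) (Fin 2) Ω) := by
  letI : Algebra F Ω := ι.toAlgebra
  have pre : ∀ y : Ω, y ^ 3 ^ n = y → ∃ x, ι x = y := fun y hy =>
    KnownSimple.ChevalleyLang.exists_preimage (F := F) (by rw [hF]; exact hy)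
  have hq : 1 ≤ 3 ^ n := Nat.one_le_pow _ _ (by norm_num)
  have hpm : ∀ β : Ω, β ^ (3 ^ n - 1) = 1 → β ^ 3 ^ n = β := fun β h => by
    conv_lhs => rw [← Nat.sub_add_cancel hq, pow_succ, h, one_mul]
  by_cases hsplit : (α : Ω) ^ (3 ^ n - 1) = 1
  · obtain ⟨x, hx⟩ := pre _ (hpm _ hsplit)
    have hx0 : x ≠ 0 := fun e => α.ne_zero (by rw [← hx, e, map_zero])
    refine ⟨⟨!![x, 0; 0, x⁻¹], by simp [Matrix.det_fin_two, hx0]⟩, 1, ?_⟩
    rw [inv_one, Units.val_one, one_mul, mul_one]
    show (!![x, 0; 0, x⁻¹]).map ι = _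
    ext i j
    fin_cases i <;> fin_cases j <;> simp [hx]
  · have hα' := hα.resolve_left hsplit
    have hαq : (α : Ω) ^ 3 ^ n = (α : Ω)⁻¹ := eq_inv_of_mul_eq_one_left (by rwa [← pow_succ])
    have hne : (α : Ω) ≠ (α : Ω)⁻¹ := fun e => by
      refine hsplit ?_
      refine mul_right_cancel₀ α.ne_zero ?_
      rw [← pow_succ, Nat.sub_add_cancel hq, hαq, one_mul, ← e]
    obtain ⟨t, ht⟩ := pre ((α : Ω) + (α : Ω)⁻¹) (by
      rw [add_pow_char_pow, inv_pow, hαq, inv_inv, add_comm])
    refine ⟨⟨!![0, -1; 1, t], by simp [Matrix.det_fin_two]⟩,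
      Matrix.GeneralLinearGroup.mkOfDetNeZero !![1, 1; -(α : Ω), -(α : Ω)⁻¹] (by
        rw [Matrix.det_fin_two_of]
        intro e
        exact hne (by linear_combination e)), ?_⟩
    rw [eq_comm, ← Units.eq_mul_inv_iff_mul_eq, inv_inv]
    show _ = (!![0, -1; 1, t]).map ι * _
    ext i j
    fin_cases i <;> fin_cases j <;>
      simp [Matrix.mul_apply, Fin.sum_univ_two, Matrix.GeneralLinearGroup.mkOfDetNeZero, ht,
        Units.val_inv_eq_inv_val] <;> field_simp <;> ring

variable (H : Subgroup (chevE8.group (ZMod 3)))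
variable (e : H ≃* Matrix.ProjectiveSpecialLinearGroup (Fin 2) F)

/-- The map to the group of type E8. -/
noncomputable def toG : SL(2, F) →* chevE8.group (ZMod 3) :=
  H.subtype.comp (e.symm.toMonoidHom.comp (QuotientGroup.mk' (Subgroup.center (SL(2, F)))))

theorem toG_eq_one {g : SL(2, F)} : toG H e g = 1 ↔ g ∈ Subgroup.center (SL(2, F)) := by
  rw [← QuotientGroup.eq_one_iff]
  show ((e.symm (g : Matrix.ProjectiveSpecialLinearGroup (Fin 2) F) : H) : chevE8.group (ZMod 3)) = 1 ↔ _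
  rw [OneMemClass.coe_eq_one, EmbeddingLike.map_eq_one_iff]

/-- The representation on the big field. -/
noncomputable def rep : SL(2, F) →* Module.End Ω (chevE8.Idx → Ω) :=
  (Matrix.toLinAlgEquiv' : Matrix chevE8.Idx chevE8.Idx Ω ≃ₐ[Ω] _).toMonoidHom.comp
    ((Units.coeHom _).comp ((Twist.emb chevE8 (ZMod 3) Ω).comp (toG H e)))

theorem charpoly_rep (g : SL(2, F)) :
    (rep H e g).charpoly = (toΩ (toG H e g)).charpoly :=
  Matrix.charpoly_toLin' _

variable {k : ℕ}

include H e in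
/-- The contradiction from weights, spectra and certificates. -/
theorem no_psl (O : Orbits) (hk : O.k = k) (hF : Fintype.card F = 3 ^ (k + 1))
    (hO : O.okB = true) (hC : certsB O.V O.D O.certs = true)
    (hbig : 248 < (suppL (k + 1) (3 ^ (k + 1) - 1)).length ∨
      (112 < ((suppL (k + 1) (3 ^ (k + 1) - 1)).map fun i => ((3 ^ (k + 1) - 1) / 2 + i) % 2).sum ∧
        ((suppL (k + 1) (3 ^ (k + 1) - 1)).map fun i => ((3 ^ (k + 1) - 1) / 2 + i) % 2).sum +
          (248 - (suppL (k + 1) (3 ^ (k + 1) - 1)).length) < 128))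
    {p : ℕ} [Fact p.Prime] (hp2 : p % 2 = 1) (hp3 : ¬ 3 ∣ p) (hpq : p ∣ 3 ^ (k + 1) + 1)
    (h4 : 4 ∣ 3 ^ (k + 1) - 1 ∨ 4 ∣ 3 ^ (k + 1) + 1) (hOp : O.p = p)
    (P : Tor p) (hP : P.okB = true) (hord : ¬ p ^ 3 ∣ Nat.card (chevE8.group (ZMod 3)))
    {Cn : ℕ} {S : List ℕ} (hcodes : codesB Cn p P.r0 P.r1 O.C S = true)
    (hS : S.all (fun s => ([112, 128] : List ℕ).all fun o =>
      O.certs.any fun c => pack c.1 == s + o * base ^ 7) = true) : False := by
  classical
  haveI : CharP F 3 := by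
    obtain ⟨r, hr⟩ := CharP.exists F
    obtain ⟨n, hrp, hn⟩ := FiniteField.card F r
    have hd : r ∣ 3 ^ (k + 1) := hF ▸ hn ▸ dvd_pow_self r n.ne_zero
    obtain rfl : r = 3 := (Nat.prime_dvd_prime_iff_eq hrp Nat.prime_three).1 (hrp.dvd_of_dvd_pow hd)
    exact hr
  letI : Algebra (ZMod 3) F := ZMod.algebra F 3
  let ι : F →+* Ω := (IsAlgClosed.lift : F →ₐ[ZMod 3] Ω).toRingHom
  haveI : FiniteDimensional Ω (chevE8.Idx → Ω) := inferInstance
  obtain ⟨L, hLq, hL⟩ := exists_weights ι 3 (rep H e)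
  rw [hF] at hLq
  have hchar : ∀ (g : SL(2, F)) (Q : GL (Fin 2) Ω) (α : Ωˣ),
      mapM ι g = (Q : Matrix (Fin 2) (Fin 2) Ω) * Matrix.diagonal ![(α : Ω), ((α⁻¹ : Ωˣ) : Ω)] *
        ((Q⁻¹ : GL (Fin 2) Ω) : Matrix (Fin 2) (Fin 2) Ω) →
      (toΩ (toG H e g)).charpoly = ((allW L).map fun z => X - C ((α : Ω) ^ z)).prod := by
    intro g Q α hg
    rw [← charpoly_rep, hL g Q α hg, allW, Multiset.map_bind, Multiset.prod_bind]
    refine congrArg Multiset.prod (Multiset.map_congr rfl fun a _ => ?_)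
    rw [ex, Multiset.map_map]
    refine congrArg Multiset.prod (Multiset.map_congr rfl fun i _ => ?_)
    simp [Units.val_zpow_eq_zpow_val]
  have hroots : ∀ (g : SL(2, F)) (Q : GL (Fin 2) Ω) (α : Ωˣ),
      mapM ι g = (Q : Matrix (Fin 2) (Fin 2) Ω) * Matrix.diagonal ![(α : Ω), ((α⁻¹ : Ωˣ) : Ω)] *
        ((Q⁻¹ : GL (Fin 2) Ω) : Matrix (Fin 2) (Fin 2) Ω) →
      (toΩ (toG H e g)).charpoly.roots = (allW L).map fun z => (α : Ω) ^ z := fun g Q α hg => by
    rw [hchar g Q α hg, roots_prod]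
  have hone := hchar 1 1 1 (by
    simp only [map_one, inv_one, Units.val_one, one_mul, mul_one]
    ext i j
    fin_cases i <;> fin_cases j <;> simp)
  have hdim : (allW L).card = 248 := by
    have := congrArg Polynomial.natDegree hone
    rw [Matrix.charpoly_natDegree_eq_dim, show (fun z : ℤ => X - C (((1 : Ωˣ) : Ω) ^ z)) =
      (fun x => X - C x) ∘ fun z : ℤ => ((1 : Ωˣ) : Ω) ^ z from rfl, ← Multiset.map_map,
      Polynomial.natDegree_multiset_prod_X_sub_C_eq_card, Multiset.card_map] at this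
    rw [← this]
    decide
  have hmem : ∀ a ∈ L, (a : ℤ) ∈ allW L := fun a ha => Multiset.mem_bind.2
    ⟨a, ha, Multiset.count_ne_zero.1 (by rw [count_ex_self]; exact one_ne_zero)⟩
  have heven : ∀ a ∈ L, a % 2 = 0 := by
    intro a ha
    let g : SL(2, F) := ⟨!![-1, 0; 0, -1], by simp [Matrix.det_fin_two]⟩
    have hg : mapM ι g = -1 := by
      show (!![-1, 0; 0, -1] : Matrix (Fin 2) (Fin 2) F).map ι = _
      ext i j
      fin_cases i <;> fin_cases j <;> simp
    have h1 : toG H e g = 1 := (toG_eq_one H e).2 (mapM_neg_one ι hg)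
    have hr := hroots g 1 (-1) (by
      rw [hg, inv_one, Units.val_one, one_mul, mul_one]
      ext i j
      fin_cases i <;> fin_cases j <;> simp)
    rw [h1, toΩ, map_one, Units.val_one, Matrix.charpoly_one] at hr
    have hin : (((-1 : Ωˣ) : Ω) ^ (a : ℤ)) ∈ (allW L).map fun z : ℤ => ((-1 : Ωˣ) : Ω) ^ z :=
      Multiset.mem_map_of_mem _ (hmem a ha)
    rw [← hr, Polynomial.roots_pow, ← Polynomial.C_1, Polynomial.roots_X_sub_C] at hin
    have hval : ((-1 : Ω)) ^ a = 1 := by
      have := Multiset.mem_singleton.1 (Multiset.mem_of_mem_nsmul hin)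
      simpa using this
    by_contra ho
    rw [Odd.neg_one_pow (Nat.odd_iff.2 (by omega))] at hval
    exact neg_one_ne_one_Ω hval
  have hpow : ∀ {α : Ωˣ} {g : SL(2, F)} {Q : GL (Fin 2) Ω},
      mapM ι g = (Q : Matrix (Fin 2) (Fin 2) Ω) * Matrix.diagonal ![(α : Ω), ((α⁻¹ : Ωˣ) : Ω)] *
        ((Q⁻¹ : GL (Fin 2) Ω) : Matrix (Fin 2) (Fin 2) Ω) →
      ∀ (n : ℕ) (c : Ω), (α : Ω) ^ n = c → c * c = 1 → mapM ι (g ^ n) = c • 1 := by
    intro α g Q hg n c hc hcc
    rw [map_pow, hg, Units.conj_pow, Matrix.diagonal_pow]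
    have : (![(α : Ω), ((α⁻¹ : Ωˣ) : Ω)] ^ n) = fun _ => c := by
      funext i
      fin_cases i
      · simpa using hc
      · simp only [Pi.pow_apply, Units.val_inv_eq_inv_val]
        simpa [hc] using inv_eq_of_mul_eq_one_right hcc
    rw [this, ← Matrix.smul_one_eq_diagonal, mul_smul_comm, mul_one, smul_mul_assoc, Units.mul_inv]
  have hnc : ∀ {α : Ωˣ} {g : SL(2, F)} {Q : GL (Fin 2) Ω},
      mapM ι g = (Q : Matrix (Fin 2) (Fin 2) Ω) * Matrix.diagonal ![(α : Ω), ((α⁻¹ : Ωˣ) : Ω)] *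
        ((Q⁻¹ : GL (Fin 2) Ω) : Matrix (Fin 2) (Fin 2) Ω) →
      (α : Ω) ^ 2 ≠ 1 → toG H e g ≠ 1 := by
    intro α g Q hg h2 h1
    obtain ⟨r, hr2, hr⟩ := Matrix.SpecialLinearGroup.mem_center_iff.1 ((toG_eq_one H e).1 h1)
    have hs : mapM ι g = ι r • (1 : Matrix (Fin 2) (Fin 2) Ω) := by
      show (g : Matrix (Fin 2) (Fin 2) F).map ι = _
      rw [← hr]
      ext i j
      by_cases hij : i = j <;> simp [hij]
    have hD : Matrix.diagonal ![(α : Ω), ((α⁻¹ : Ωˣ) : Ω)] = ι r • (1 : Matrix (Fin 2) (Fin 2) Ω) := by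
      have e1 := congrArg (fun M => ((Q⁻¹ : GL (Fin 2) Ω) : Matrix (Fin 2) (Fin 2) Ω) * M *
        (Q : Matrix (Fin 2) (Fin 2) Ω)) (hg.symm.trans hs)
      simp only [← mul_assoc, Units.inv_mul, one_mul, mul_smul_comm, smul_mul_assoc, mul_one] at e1
      rwa [mul_assoc, Units.inv_mul, mul_one] at e1
    have e0 := congrFun (congrFun hD 0) 0
    simp at e0
    refine h2 ?_
    rw [e0, ← map_pow]
    rw [show r ^ 2 = 1 by simpa using hr2, map_one]
  have heven2 : ∀ z ∈ allW L, 2 * (z / 2) = z := by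
    intro z hz
    obtain ⟨c, hc, hz⟩ := Multiset.mem_bind.1 hz
    have := heven c hc
    have := (mem_ex hz).2.2
    omega
  -- the involution
  obtain ⟨i4, hi4⟩ := exists_primitive (show ¬ 3 ∣ 4 by norm_num)
  set w := (hi4.isUnit (by norm_num)).unit
  have hw : (w : Ω) = i4 := IsUnit.unit_spec _
  have hw2 : (w : Ω) ^ 2 = -1 := by
    rw [hw]
    exact (hi4.pow (by norm_num) (show 4 = 2 * 2 by norm_num)).eq_neg_one_of_two_right
  obtain ⟨s, R, hs⟩ := exists_elt ι hF (α := w) (by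
    rw [hw]
    rcases h4 with ⟨t, ht⟩ | ⟨t, ht⟩
    · exact Or.inl (by rw [ht, pow_mul, hi4.pow_eq_one, one_pow])
    · exact Or.inr (by rw [ht, pow_mul, hi4.pow_eq_one, one_pow]))
  have hs2 : orderOf (toG H e s) = 2 := by
    haveI : Fact (Nat.Prime 2) := ⟨Nat.prime_two⟩
    refine orderOf_eq_prime ?_ (hnc hs (by rw [hw2]; exact neg_one_ne_one_Ω))
    rw [← map_pow, toG_eq_one]
    exact mapM_neg_one ι (by rw [hpow hs 2 (-1) hw2 (by ring), neg_one_smul])
  obtain ⟨f, hfsum, hf1, hfc⟩ := exists_inv_spectrum hs2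
  have hr2 := hroots s R w hs
  rw [hfc, show (∏ x : chevE8.Idx, (X - C ((-1 : Ω) ^ f x))) =
    (Finset.univ.val.map fun x : chevE8.Idx => X - C ((-1 : Ω) ^ f x)).prod from rfl, roots_prod] at hr2
  have hprim2 : IsPrimitiveRoot (-1 : Ω) 2 := by
    rw [← hw2, hw]
    exact hi4.pow (by norm_num) (by norm_num)
  have hres2 : (allW L).map (fun z => (z / 2) % ((2 : ℕ) : ℤ)) =
      Finset.univ.val.map (fun x : chevE8.Idx => ((f x : ℕ) : ℤ) % ((2 : ℕ) : ℤ)) := by
    refine residues_of_roots hprim2 (fun z => z / 2) (fun x => ((f x : ℕ) : ℤ)) ?_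
    simp only [zpow_natCast]
    rw [hr2]
    refine Multiset.map_congr rfl fun z hz => ?_
    conv_rhs => rw [← heven2 z hz, _root_.zpow_mul]
    rw [← hw2, zpow_ofNat]
  have hsum2 : ((allW L).map fun z => ((z / 2) % 2).toNat).sum = ∑ x, f x := by
    have := congrArg (fun M : Multiset ℤ => (M.map Int.toNat).sum) hres2
    simp only [Multiset.map_map, Function.comp_def, Nat.cast_ofNat] at this
    rw [this]
    refine congrArg Multiset.sum (Multiset.map_congr rfl fun x _ => ?_)
    have := hf1 x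
    omega
  have hLgood : ∀ a ∈ L, a % 2 = 0 ∧ a + 3 ≤ 3 ^ (k + 1) := by
    intro a ha
    have h2 := heven a ha
    have hlt := hLq a ha
    refine ⟨h2, ?_⟩
    by_contra hc
    have hodd : 3 ^ (k + 1) % 2 = 1 := Nat.pow_mod 3 (k + 1) 2 ▸ by simp
    obtain rfl : a = 3 ^ (k + 1) - 1 := by omega
    obtain ⟨L', hL'⟩ := Multiset.exists_cons_of_mem ha
    have hsplit : allW L = ex (3 ^ (k + 1) - 1) + allW L' := by
      rw [hL', allW, Multiset.cons_bind]; rfl
    have hc1 : (ex (3 ^ (k + 1) - 1)).card + (allW L').card = 248 := by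
      rw [← Multiset.card_add, ← hsplit, hdim]
    have hlen := card_ex (n := k + 1) (a := 3 ^ (k + 1) - 1) (by omega)
    rcases hbig with hbig | ⟨hb1, hb2⟩
    · omega
    have hN : ((ex (3 ^ (k + 1) - 1)).map fun z => ((z / 2) % 2).toNat).sum =
        ((suppL (k + 1) (3 ^ (k + 1) - 1)).map fun i => ((3 ^ (k + 1) - 1) / 2 + i) % 2).sum := by
      rw [ex, supp_val (k := k + 1) (by omega), Multiset.map_coe, Multiset.map_coe, Multiset.sum_coe,
        List.map_map]
      refine congrArg List.sum (List.map_congr_left fun i _ => ?_)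
      simp only [Function.comp_apply]
      omega
    have hrest : ((allW L').map fun z => ((z / 2) % 2).toNat).sum ≤ (allW L').card • 1 := by
      refine (Multiset.sum_le_card_nsmul _ 1 fun y hy => ?_).trans (by rw [Multiset.card_map])
      obtain ⟨z, _, rfl⟩ := Multiset.mem_map.1 hy
      omega
    rw [hsplit, Multiset.map_add, Multiset.sum_add, hN] at hsum2
    rw [nsmul_one, Nat.cast_id] at hrest
    rcases hfsum with h | h <;> omega
  have hq9 : 3 ≤ 3 ^ (k + 1) := Nat.le_self_pow k.succ_ne_zero 3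
  -- stability
  have hcube : ∀ (m : ℕ), ¬ 3 ∣ m → (m = 3 ^ (k + 1) - 1 ∨ m = 3 ^ (k + 1) + 1) →
      (allW L).map (fun z => (3 * z) % (m : ℤ)) = (allW L).map (· % (m : ℤ)) := by
    intro m hm hmm
    haveI : NeZero m := ⟨fun h => hm (h ▸ dvd_zero 3)⟩
    obtain ⟨α, hα⟩ := exists_primitive hm
    set u := (hα.isUnit (NeZero.ne m)).unit
    have hu : (u : Ω) = α := IsUnit.unit_spec _
    obtain ⟨g, Q, hg⟩ := exists_elt ι hF (α := u) (by
      rw [hu]
      rcases hmm with rfl | rfl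
      · exact Or.inl hα.pow_eq_one
      · exact Or.inr hα.pow_eq_one)
    have h := roots_cube (toG H e g)
    rw [hroots g Q u hg, Multiset.map_map, hu] at h
    refine residues_of_roots hα (fun z => 3 * z) (fun z => z) ?_
    rw [← h]
    refine Multiset.map_congr rfl fun z _ => ?_
    rw [Function.comp_apply, mul_comm 3 z, _root_.zpow_mul]
    exact zpow_natCast (α ^ z) 3
  have hlt : ∀ a ∈ L, a < 3 ^ (k + 1) := hLq
  have hinv : L.map (sig k) = L := by
    refine eq_of_residues (q := 3 ^ (k + 1)) (Nat.pow_mod 3 (k + 1) 2 ▸ by simp) (fun a ha => ?_) hLgood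
      ?_ ?_
    · obtain ⟨b, hb, rfl⟩ := Multiset.mem_map.1 ha
      exact sig_facts (hLgood b hb).1 (hLgood b hb).2
    · have := hcube (3 ^ (k + 1) - 1) (fun h => by
        have h3 : 3 ∣ 3 ^ (k + 1) := dvd_pow_self 3 k.succ_ne_zero
        omega) (Or.inl rfl)
      rw [Nat.cast_sub (by omega), Nat.cast_one] at this
      rw [← this]
      push_cast
      exact allW_sig_minus hlt
    · have := hcube (3 ^ (k + 1) + 1) (fun h => by
        have h3 : 3 ∣ 3 ^ (k + 1) := dvd_pow_self 3 k.succ_ne_zero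
        omega) (Or.inr rfl)
      push_cast at this ⊢
      rw [← this]
      exact allW_sig_plus hlt
  -- the element of order p
  haveI : NeZero p := ⟨(Fact.out : p.Prime).ne_zero⟩
  obtain ⟨ζ, hζ⟩ := exists_primitive hp3
  set v := (hζ.isUnit (NeZero.ne p)).unit
  have hv : (v : Ω) = ζ := IsUnit.unit_spec _
  set β := v ^ ((p + 1) / 2) with hβ
  have hβ2 : (β : Ω) ^ 2 = ζ := by
    rw [hβ, Units.val_pow_eq_pow_val, ← pow_mul, show (p + 1) / 2 * 2 = p + 1 by omega, pow_succ,
      hv, hζ.pow_eq_one, one_mul]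
  have hβp : (β : Ω) ^ p = 1 := by
    rw [hβ, Units.val_pow_eq_pow_val, ← pow_mul, mul_comm, pow_mul, hv, hζ.pow_eq_one, one_pow]
  obtain ⟨g, Q, hg⟩ := exists_elt ι hF (α := β) (by
    obtain ⟨t, ht⟩ := hpq
    exact Or.inr (by rw [ht, pow_mul, hβp, one_pow]))
  have hgp : toG H e g ^ p = 1 := by
    have : g ^ p = 1 := mapM_injective ι (by
      rw [hpow hg p 1 hβp (one_mul 1), one_smul, map_one])
    rw [← map_pow, this, map_one]
  have hg1 : toG H e g ≠ 1 := hnc hg (by
    rw [hβ2]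
    exact hζ.ne_one (Fact.out : p.Prime).one_lt)
  obtain ⟨a, ha, b, hb, hab, hcp⟩ := exists_spectrum P hP hord hζ hgp hg1
  have hr := hroots g Q β hg
  rw [hcp, show (∏ x : chevE8.Idx, (X - C (ζ ^ P.res a b x))) =
    (Finset.univ.val.map fun x : chevE8.Idx => X - C (ζ ^ P.res a b x)).prod from rfl, roots_prod] at hr
  have hres : (allW L).map (fun z => (z / 2) % (p : ℤ)) =
      Finset.univ.val.map (fun x : chevE8.Idx => ((P.res a b x : ℕ) : ℤ) % (p : ℤ)) := by
    refine residues_of_roots hζ (fun z => z / 2) (fun x => ((P.res a b x : ℕ) : ℤ)) ?_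
    simp only [zpow_natCast]
    rw [hr]
    refine Multiset.map_congr rfl fun z hz => ?_
    conv_rhs => rw [← heven2 z hz, _root_.zpow_mul]
    rw [← hβ2, zpow_ofNat]
  -- the code
  have hsum1 : ((allW L).map fun z => base ^ O.C.getD ((z / 2) % (p : ℤ)).toNat 0).sum =
      (Finset.univ.val.map fun x : chevE8.Idx => base ^ O.C.getD (P.res a b x) 0).sum := by
    have := congrArg (fun M : Multiset ℤ => (M.map fun r => base ^ O.C.getD r.toNat 0).sum) hres
    simp only [Multiset.map_map, Function.comp_def] at this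
    rw [this]
    refine congrArg Multiset.sum (Multiset.map_congr rfl fun x _ => ?_)
    have hlt : P.res a b x < p := by
      rcases x with x | x
      · exact Nat.pos_of_ne_zero (NeZero.ne p)
      · exact Nat.mod_lt _ (Nat.pos_of_ne_zero (NeZero.ne p))
    rw [Int.emod_eq_of_lt (Int.natCast_nonneg (P.res a b x)) (Int.ofNat_lt.2 hlt), Int.toNat_natCast]
  have hcode := code_mem (Nat.pos_of_ne_zero (NeZero.ne p)) hp3 hcodes ha hb hab
  simp only [List.all_eq_true, List.any_eq_true, beq_iff_eq] at hS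
  obtain ⟨c, hc, hpack⟩ := hS _ hcode (∑ x, f x) (by
    rcases hfsum with h | h <;> simp [h])
  subst hk
  refine kill O hO hC (L := L) hLgood hinv hdim hc ?_
  rw [hpack, hOp]
  show ((allW L).map fun z => base ^ O.C.getD ((z / 2) % (p : ℤ)).toNat 0 +
    ((z / 2) % 2).toNat * base ^ 7).sum = _
  rw [Multiset.sum_map_add, Multiset.sum_map_mul_right, hsum1, hsum2]
  rfl

end Group

/-- The data for PSL(2, 729). -/
def orbits73 : Orbits := ⟨5, 364, cls73, 73, reps73, orb73, pos73, vecs73, dims73, certs73⟩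

/-- The data for PSL(2, 243). -/
def orbits61 : Orbits := ⟨4, 121, cls61, 61, reps61, orb61, pos61, vecs61, dims61, certs61⟩

theorem orbits73_ok : orbits73.okB = true := by decide +kernel

theorem orbits61_ok : orbits61.okB = true := by decide +kernel

theorem no_psl_729 {F : Type*} [Field F] [Fintype F] (hF : Fintype.card F = 729)
    (H : Subgroup (chevE8.group (ZMod 3))) :
    IsEmpty (H ≃* Matrix.ProjectiveSpecialLinearGroup (Fin 2) F) :=
  haveI : Fact (Nat.Prime 73) := ⟨by norm_num⟩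
  ⟨fun e => no_psl (k := 5) (p := 73) H e orbits73 rfl hF orbits73_ok certs73_ok (by decide +kernel)
    (by norm_num) (by norm_num) (by norm_num) (Or.inl (by norm_num)) rfl tor73 tor73_ok ord73
    codes73_ok (by decide +kernel)⟩

theorem no_psl_243 {F : Type*} [Field F] [Fintype F] (hF : Fintype.card F = 243)
    (H : Subgroup (chevE8.group (ZMod 3))) :
    IsEmpty (H ≃* Matrix.ProjectiveSpecialLinearGroup (Fin 2) F) :=
  haveI : Fact (Nat.Prime 61) := ⟨by norm_num⟩
  ⟨fun e => no_psl (k := 4) (p := 61) H e orbits61 rfl hF orbits61_ok certs61_ok (by decide +kernel)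
    (by norm_num) (by norm_num) (by norm_num) (Or.inr (by norm_num)) rfl tor61 tor61_ok ord61
    codes61_ok (by decide +kernel)⟩

end CfsgLib.E8Small
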