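import Cfsg.Agent.Lib.GLCuspidal.Def
import Mathlib.LinearAlgebra.Eigenspace.Triangularizable
import Mathlib.LinearAlgebra.Matrix.SpecialLinearGroup

/-!
The weights of a representation of `SL(2, F)` over an algebraically closed field of the
characteristic of `F`: every irreducible one is the span of the `a`-th powers of linear forms.
-/

set_option autoImplicit false
set_option linter.unusedSectionVars false
set_option linter.style.haveILetI false

open Matrix Polynomial Module
open scoped MatrixGroups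

namespace CfsgLib.E8Small

/-- The exponents occurring in `a`-th powers. -/
def supp (p a : ℕ) : Finset ℕ := (Finset.range (a + 1)).filter fun i => ¬ p ∣ a.choose i

theorem mem_supp {p a i : ℕ} : i ∈ supp p a ↔ i ≤ a ∧ ¬ p ∣ a.choose i := by
  simp [supp, Finset.mem_filter]

variable {K : Type*} [Field K] {F : Type*} [Field F] [Fintype F] (ι : F →+* K)
variable (p : ℕ) [Fact p.Prime] [CharP K p]

/-- A power of a linear form. -/
def pw (a : ℕ) (v : Fin 2 → K) : (Fin 2 → K) → K := fun x => (x ⬝ᵥ v) ^ a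

/-- A monomial. -/
def mono (a i : ℕ) : (Fin 2 → K) → K := fun x => x 0 ^ (a - i) * x 1 ^ i

/-- The module of weight `a`. -/
def La (K : Type*) [Field K] (a : ℕ) : Submodule K ((Fin 2 → K) → K) :=
  Submodule.span K (Set.range (pw a))

theorem pw_eq_sum (a : ℕ) (v : Fin 2 → K) :
    pw a v = ∑ i ∈ supp p a, ((a.choose i : K) * (v 0 ^ (a - i) * v 1 ^ i)) • mono a i := by
  funext x
  simp only [pw, dotProduct, Fin.sum_univ_two, Finset.sum_apply, Pi.smul_apply, smul_eq_mul, mono]
  rw [add_comm, add_pow, supp, Finset.sum_filter_of_ne]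
  · exact Finset.sum_congr rfl fun i _ => by ring
  · intro i _ hne hd
    rw [(CharP.cast_eq_zero_iff K p _).2 hd, zero_mul, zero_mul] at hne
    exact hne rfl

theorem eq_zero_of_eval {a : ℕ} (ha : a < Fintype.card F) (d : ℕ → K)
    (h : ∀ c : F, ∑ i ∈ Finset.range (a + 1), d i * ι c ^ i = 0) : ∀ i ≤ a, d i = 0 := by
  classical
  set P : K[X] := ∑ i ∈ Finset.range (a + 1), C (d i) * X ^ i with hP
  have hdeg : P.natDegree ≤ a := natDegree_sum_le_of_forall_le _ _ fun i hi =>
    (natDegree_C_mul_X_pow_le (d i) i).trans (Nat.lt_succ_iff.1 (Finset.mem_range.1 hi))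
  have hP0 : P = 0 := by
    refine eq_zero_of_natDegree_lt_card_of_eval_eq_zero P ι.injective (fun c => ?_) ?_
    · simp only [hP, eval_finsetSum, eval_mul, eval_C, eval_pow, eval_X]
      exact h c
    · exact lt_of_le_of_lt hdeg ha
  intro i hi
  have := congrArg (fun Q : K[X] => Q.coeff i) hP0
  simp only [hP, finsetSum_coeff, coeff_C_mul_X_pow, coeff_zero, Finset.sum_ite_eq] at this
  rwa [if_pos (Finset.mem_range.2 (Nat.lt_succ_iff.2 hi))] at this

theorem mono_mem_span {a : ℕ} (ha : a < Fintype.card F) {i : ℕ} (hi : i ∈ supp p a) :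
    mono a i ∈ Submodule.span K (Set.range fun c : F => pw a ![1, ι c]) := by
  classical
  set S := Submodule.span K (Set.range fun c : F => pw a (![1, ι c] : Fin 2 → K))
  by_contra hm
  obtain ⟨φ, hφ, hφS⟩ := Submodule.exists_dual_map_eq_bot_of_notMem hm inferInstance
  obtain ⟨hia, hndvd⟩ := mem_supp.1 hi
  have key : ∀ c : F, ∑ j ∈ Finset.range (a + 1),
      (if j ∈ supp p a then (a.choose j : K) * φ (mono a j) else 0) * ι c ^ j = 0 := by
    intro c
    have h0 : φ (pw a ![1, ι c]) = 0 := by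
      have : φ (pw a ![1, ι c]) ∈ S.map φ :=
        Submodule.mem_map_of_mem (Submodule.subset_span ⟨c, rfl⟩)
      rwa [hφS, Submodule.mem_bot] at this
    rw [pw_eq_sum p, map_sum] at h0
    refine Eq.trans ?_ h0
    rw [supp, Finset.sum_filter]
    refine Finset.sum_congr rfl fun j hj => ?_
    simp only [Finset.mem_filter, hj, true_and, map_smul, smul_eq_mul, Matrix.cons_val_zero,
      Matrix.cons_val_one, one_pow, one_mul]
    by_cases hd : p ∣ a.choose j
    · simp [hd]
    · simp only [hd, not_false_eq_true, if_true]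
      ring
  have := eq_zero_of_eval ι ha _ key i hia
  rw [if_pos hi] at this
  rcases mul_eq_zero.1 this with h | h
  · exact hndvd ((CharP.cast_eq_zero_iff K p _).1 h)
  · exact hφ h

include ι p in
theorem La_eq_span {a : ℕ} (ha : a < Fintype.card F) :
    La K a = Submodule.span K (Set.range fun i : supp p a => mono a (i : ℕ)) := by
  refine le_antisymm (Submodule.span_le.2 ?_) (Submodule.span_le.2 ?_)
  · rintro _ ⟨v, rfl⟩
    rw [pw_eq_sum p]
    exact Submodule.sum_mem _ fun i hi =>
      Submodule.smul_mem _ _ (Submodule.subset_span ⟨⟨i, hi⟩, rfl⟩)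
  · rintro _ ⟨⟨i, hi⟩, rfl⟩
    refine Submodule.span_mono ?_ (mono_mem_span ι p ha hi)
    rintro _ ⟨c, rfl⟩
    exact ⟨_, rfl⟩

/-- Nonzero vectors. -/
abbrev Pt (F : Type*) [Zero F] := {v : Fin 2 → F // v ≠ 0}

/-- Restriction to the nonzero rational points. -/
def res : ((Fin 2 → K) → K) →ₗ[K] (Pt F → K) where
  toFun f v := f fun i => ι (v.1 i)
  map_add' _ _ := rfl
  map_smul' _ _ := rfl

include ι p in
theorem res_mono_independent {a : ℕ} (ha : a < Fintype.card F) :
    LinearIndependent K fun i : supp p a => res ι (mono (K := K) a (i : ℕ)) := by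
  classical
  rw [Fintype.linearIndependent_iff]
  intro d hd j
  have key : ∀ c : F, ∑ i ∈ Finset.range (a + 1),
      (if h : i ∈ supp p a then d ⟨i, h⟩ else 0) * ι c ^ i = 0 := by
    intro c
    have h0 := congrFun hd ⟨![1, c], fun e => one_ne_zero (congrFun e 0)⟩
    simp only [Finset.sum_apply, Pi.smul_apply, smul_eq_mul, Pi.zero_apply] at h0
    rw [← Finset.sum_subset (s₁ := supp p a) (s₂ := Finset.range (a + 1))
      (fun i hi => Finset.mem_range.2 (Nat.lt_succ_iff.2 (mem_supp.1 hi).1))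
      (fun i _ hn => by rw [dif_neg hn, zero_mul]), ← h0, ← Finset.sum_coe_sort]
    refine Finset.sum_congr rfl fun i _ => ?_
    rw [dif_pos i.2]
    simp [res, mono, map_one]
  have := eq_zero_of_eval ι ha _ key j (mem_supp.1 j.2).1
  rwa [dif_pos j.2] at this

include ι p in
theorem mono_independent {a : ℕ} (ha : a < Fintype.card F) :
    LinearIndependent K fun i : supp p a => mono (K := K) a (i : ℕ) :=
  LinearIndependent.of_comp (res ι) (res_mono_independent ι p ha)

include ι p in
theorem res_injective_on {a : ℕ} (ha : a < Fintype.card F) {f : (Fin 2 → K) → K} (hf : f ∈ La K a)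
    (h0 : res ι f = 0) : f = 0 := by
  classical
  rw [La_eq_span ι p ha, Submodule.mem_span_range_iff_exists_fun] at hf
  obtain ⟨d, rfl⟩ := hf
  rw [map_sum] at h0
  simp only [map_smul] at h0
  have := Fintype.linearIndependent_iff.1 (res_mono_independent ι p ha) d h0
  simp [this]

/-- The action of a matrix. -/
def act (M : Matrix (Fin 2) (Fin 2) K) : ((Fin 2 → K) → K) →ₗ[K] ((Fin 2 → K) → K) where
  toFun f x := f (x ᵥ* M)
  map_add' _ _ := rfl
  map_smul' _ _ := rfl

theorem act_pw (M : Matrix (Fin 2) (Fin 2) K) (a : ℕ) (v : Fin 2 → K) :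
    act M (pw a v) = pw a (M *ᵥ v) := by
  funext x
  show ((x ᵥ* M) ⬝ᵥ v) ^ a = (x ⬝ᵥ (M *ᵥ v)) ^ a
  rw [Matrix.dotProduct_mulVec]

theorem act_mul (M N : Matrix (Fin 2) (Fin 2) K) (f : (Fin 2 → K) → K) :
    act (M * N) f = act M (act N f) := by
  funext x
  simp [act, Matrix.vecMul_vecMul]

theorem act_mem {M : Matrix (Fin 2) (Fin 2) K} {a : ℕ} {f : (Fin 2 → K) → K} (hf : f ∈ La K a) :
    act M f ∈ La K a := by
  induction hf using Submodule.span_induction with
  | mem f hf =>
    obtain ⟨v, rfl⟩ := hf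
    exact act_pw M a v ▸ Submodule.subset_span ⟨_, rfl⟩
  | zero => simp
  | add f g _ _ h1 h2 => rw [map_add]; exact add_mem h1 h2
  | smul c f _ h1 => rw [map_smul]; exact Submodule.smul_mem _ c h1

/-- The action on the module of weight `a`. -/
def actL (a : ℕ) : Matrix (Fin 2) (Fin 2) K →* Module.End K (La K a) where
  toFun M := (act M).restrict fun _ hf => act_mem hf
  map_one' := LinearMap.ext fun f => Subtype.ext (funext fun x => by simp [act])
  map_mul' M N := LinearMap.ext fun f => Subtype.ext (act_mul M N _)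

include ι p in
theorem finite_La {a : ℕ} (ha : a < Fintype.card F) : Module.Finite K (La K a) :=
  Module.Finite.iff_fg.2 (La_eq_span ι p ha ▸ Submodule.fg_span (Set.finite_range _))

include ι p in
theorem charpoly_actL_diag {a : ℕ} (ha : a < Fintype.card F) (α : Kˣ) :
    haveI := finite_La ι p ha
    (actL a (Matrix.diagonal ![(α : K), ((α⁻¹ : Kˣ) : K)])).charpoly =
      ∏ i ∈ supp p a, (X - C ((α ^ ((a : ℤ) - 2 * i) : Kˣ) : K)) := by
  classical
  let b : Basis (supp p a) K (La K a) :=
    (Basis.span (mono_independent ι p ha)).map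
      (LinearEquiv.ofEq _ _ (La_eq_span ι p ha).symm)
  have hb : ∀ i, ((b i : La K a) : (Fin 2 → K) → K) = mono a (i : ℕ) := by
    intro i
    simp [b, Basis.span_apply]
  haveI : Module.Finite K (La K a) := Module.Finite.of_basis b
  haveI : Module.Free K (La K a) := Module.Free.of_basis b
  set T := actL a (Matrix.diagonal ![(α : K), ((α⁻¹ : Kˣ) : K)])
  have heig : ∀ i, T (b i) = ((α ^ ((a : ℤ) - 2 * (i : ℕ)) : Kˣ) : K) • b i := by
    intro i
    refine Subtype.ext (funext fun x => ?_)
    show act _ ((b i : La K a) : (Fin 2 → K) → K) x =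
      ((α ^ ((a : ℤ) - 2 * (i : ℕ)) : Kˣ) : K) * ((b i : La K a) : (Fin 2 → K) → K) x
    have hi := (mem_supp.1 i.2).1
    have e : α ^ (a - (i : ℕ)) * (α⁻¹) ^ (i : ℕ) = α ^ ((a : ℤ) - 2 * (i : ℕ)) := by
      rw [inv_pow, ← zpow_natCast, ← zpow_natCast, ← _root_.zpow_neg, ← _root_.zpow_add,
        Nat.cast_sub hi]
      congr 1
      ring
    rw [hb, ← e, Units.val_mul, Units.val_pow_eq_pow_val, Units.val_pow_eq_pow_val]
    simp only [act, mono, LinearMap.coe_mk, AddHom.coe_mk, Matrix.vecMul_diagonal,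
      Matrix.cons_val_zero, Matrix.cons_val_one, mul_pow]
    ring
  have hM : LinearMap.toMatrix b b T =
      Matrix.diagonal fun i : supp p a => ((α ^ ((a : ℤ) - 2 * (i : ℕ)) : Kˣ) : K) := by
    ext i j
    rw [LinearMap.toMatrix_apply, heig, map_smul, Finsupp.smul_apply, Basis.repr_self,
      Matrix.diagonal_apply, smul_eq_mul, Finsupp.single_apply]
    by_cases h : i = j
    · subst h; simp
    · simp [h, Ne.symm h]
  rw [← LinearMap.charpoly_toMatrix T b, hM, Matrix.charpoly_diagonal,
    Finset.prod_coe_sort (supp p a) fun i => X - C ((α ^ ((a : ℤ) - 2 * i) : Kˣ) : K)]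

/-- A matrix of `SL(2, F)` over the big field. -/
def mapM : SL(2, F) →* Matrix (Fin 2) (Fin 2) K :=
  (ι.mapMatrix : Matrix (Fin 2) (Fin 2) F →+* Matrix (Fin 2) (Fin 2) K).toMonoidHom.comp
    { toFun := fun g => (g : Matrix (Fin 2) (Fin 2) F), map_one' := rfl, map_mul' := fun _ _ => rfl }

theorem mapM_apply (g : SL(2, F)) : mapM ι g = (g : Matrix (Fin 2) (Fin 2) F).map ι := rfl

/-- Right translation of a point. -/
def ptMul (v : Pt F) (g : SL(2, F)) : Pt F :=
  ⟨v.1 ᵥ* (g : Matrix (Fin 2) (Fin 2) F), fun e => v.2 (by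
    have := congrArg (fun w => w ᵥ* ((g⁻¹ : SL(2, F)) : Matrix (Fin 2) (Fin 2) F)) e
    simp only [Matrix.vecMul_vecMul, ← Matrix.SpecialLinearGroup.coe_mul, mul_inv_cancel,
      Matrix.SpecialLinearGroup.coe_one, Matrix.vecMul_one, Matrix.zero_vecMul] at this
    exact this)⟩

theorem ptMul_mul (v : Pt F) (g h : SL(2, F)) : ptMul (ptMul v g) h = ptMul v (g * h) :=
  Subtype.ext (by simp [ptMul, Matrix.vecMul_vecMul])

/-- Translation of functions. -/
def trans (g : SL(2, F)) : (Pt F → K) →ₗ[K] (Pt F → K) where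
  toFun φ v := φ (ptMul v g)
  map_add' _ _ := rfl
  map_smul' _ _ := rfl

theorem res_act (g : SL(2, F)) (f : (Fin 2 → K) → K) :
    res ι (act (mapM ι g) f) = trans g (res ι f) := by
  funext v
  show f _ = f _
  congr 1
  funext i
  simp [ptMul, mapM_apply, Matrix.vecMul, dotProduct, Fin.sum_univ_two]

/-- Upper unipotent element. -/
def uu (c : F) : SL(2, F) := ⟨!![1, c; 0, 1], by simp [Matrix.det_fin_two]⟩

/-- Diagonal element. -/
def hh (l : Fˣ) : SL(2, F) := ⟨!![((l⁻¹ : Fˣ) : F), 0; 0, (l : F)], by simp [Matrix.det_fin_two]⟩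

/-- The reversing element. -/
def ss (F : Type*) [Field F] : SL(2, F) := ⟨!![0, 1; -1, 0], by simp [Matrix.det_fin_two]⟩

theorem ptMul_apply (v : Pt F) (g : SL(2, F)) (j : Fin 2) : (ptMul v g).1 j =
    v.1 0 * (g : Matrix (Fin 2) (Fin 2) F) 0 j + v.1 1 * (g : Matrix (Fin 2) (Fin 2) F) 1 j := by
  show (v.1 ᵥ* (g : Matrix (Fin 2) (Fin 2) F)) j = _
  rw [Matrix.vecMul, dotProduct, Fin.sum_univ_two]

theorem ptMul_uu (v : Pt F) (c : F) :
    (ptMul v (uu c)).1 0 = v.1 0 ∧ (ptMul v (uu c)).1 1 = v.1 0 * c + v.1 1 := by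
  constructor <;> rw [ptMul_apply] <;> simp [uu]

theorem ptMul_ss (v : Pt F) : (ptMul v (ss F)).1 0 = -(v.1 1) ∧ (ptMul v (ss F)).1 1 = v.1 0 := by
  constructor <;> rw [ptMul_apply] <;> simp [ss]

theorem exists_bottom (v : Pt F) : ∃ g : SL(2, F), (g : Matrix (Fin 2) (Fin 2) F) 1 = v.1 := by
  by_cases h0 : v.1 0 = 0
  · have h1 : v.1 1 ≠ 0 := fun h1 => v.2 (funext fun i => by fin_cases i <;> assumption)
    exact ⟨⟨!![(v.1 1)⁻¹, 0; v.1 0, v.1 1], by simp [Matrix.det_fin_two, h1]⟩,
      funext fun i => by fin_cases i <;> rfl⟩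
  · exact ⟨⟨!![0, -(v.1 0)⁻¹; v.1 0, v.1 1], by simp [Matrix.det_fin_two, h0]⟩,
      funext fun i => by fin_cases i <;> rfl⟩

theorem eq_uu_of_bottom {g : SL(2, F)} (h : (g : Matrix (Fin 2) (Fin 2) F) 1 = ![0, 1]) :
    ∃ c, g = uu c := by
  have h10 : (g : Matrix (Fin 2) (Fin 2) F) 1 0 = 0 := by rw [h]; rfl
  have h11 : (g : Matrix (Fin 2) (Fin 2) F) 1 1 = 1 := by rw [h]; rfl
  have hd := g.2
  rw [Matrix.det_fin_two, h10, h11, mul_one, mul_zero, sub_zero] at hd
  refine ⟨(g : Matrix (Fin 2) (Fin 2) F) 0 1, Subtype.ext ?_⟩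
  ext i j
  fin_cases i <;> fin_cases j
  exacts [hd, rfl, h10, h11]

section Classify

variable [IsAlgClosed K] {V : Type*} [AddCommGroup V] [Module K V] [FiniteDimensional K V]
variable (π : SL(2, F) →* Module.End K V)

include ι p in
theorem exists_invariant_dual [Nontrivial V] :
    ∃ f : Module.Dual K V, f ≠ 0 ∧ ∀ c w, f (π (uu c) w) = f w := by
  classical
  suffices key : ∀ s : Finset F, ∃ f : Module.Dual K V, f ≠ 0 ∧ ∀ c ∈ s, ∀ w, f (π (uu c) w) = f w by
    obtain ⟨f, hf, h⟩ := key Finset.univ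
    exact ⟨f, hf, fun c => h c (Finset.mem_univ _)⟩
  intro s
  induction s using Finset.induction_on with
  | empty =>
    obtain ⟨v, hv⟩ := exists_ne (0 : V)
    obtain ⟨f, hf⟩ := Module.Projective.exists_dual_ne_zero K hv
    exact ⟨f, fun e => hf (by rw [e]; rfl), by simp⟩
  | insert c s _ ih =>
    obtain ⟨f, hf0, hf⟩ := ih
    have hfix : ∀ n : ℕ, ∀ d ∈ s, ∀ w, (f ∘ₗ ((π (uu c) - 1) ^ n)) (π (uu d) w) =
        (f ∘ₗ ((π (uu c) - 1) ^ n)) w := by
      intro n d hd w
      have hc : Commute ((π (uu c) - 1) ^ n) (π (uu d)) := by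
        refine Commute.pow_left (Commute.sub_left ?_ (Commute.one_left _)) n
        have : Commute (uu c) (uu d) := Subtype.ext (by
          rw [Matrix.SpecialLinearGroup.coe_mul, Matrix.SpecialLinearGroup.coe_mul]
          simp [uu, Matrix.mul_fin_two, add_comm])
        exact this.map π
      have e := LinearMap.congr_fun hc.eq w
      simp only [Module.End.mul_apply] at e
      simp only [LinearMap.comp_apply, e]
      exact hf d hd _
    have hnil : (π (uu c) - 1) ^ p = 0 := by
      haveI : CharP (Module.End K V) p := charP_of_injective_algebraMap' K p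
      rw [sub_pow_char_of_commute p (Commute.one_right (π (uu c))), one_pow, ← map_pow]
      have : (uu c : SL(2, F)) ^ p = 1 := by
        haveI : CharP F p := (RingHom.charP_iff ι ι.injective p).2 inferInstance
        have hk : ∀ n : ℕ, (uu c : SL(2, F)) ^ n = uu ((n : F) * c) := by
          intro n
          induction n with
          | zero => rw [pow_zero]; exact Subtype.ext (by simp [uu, Matrix.one_fin_two])
          | succ n ih => rw [pow_succ, ih]; exact Subtype.ext (by
              rw [Matrix.SpecialLinearGroup.coe_mul]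
              simp [uu]; ring)
        rw [hk, CharP.cast_eq_zero, zero_mul]
        exact Subtype.ext (by simp [uu, Matrix.one_fin_two])
      rw [this, map_one, sub_self]
    obtain ⟨n, hn, hn'⟩ : ∃ n, f ∘ₗ ((π (uu c) - 1) ^ n) ≠ 0 ∧
        f ∘ₗ ((π (uu c) - 1) ^ (n + 1)) = 0 := by
      have hex : ∃ n, f ∘ₗ ((π (uu c) - 1) ^ n) = 0 := ⟨p, by rw [hnil, LinearMap.comp_zero]⟩
      have h0 : Nat.find hex ≠ 0 := fun e => hf0 (by
        have := Nat.find_spec hex
        rwa [e, pow_zero, Module.End.one_eq_id, LinearMap.comp_id] at this)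
      obtain ⟨m, hm⟩ := Nat.exists_eq_succ_of_ne_zero h0
      have hspec := Nat.find_spec hex
      rw [hm] at hspec
      exact ⟨m, Nat.find_min hex (by omega), hspec⟩
    refine ⟨_, hn, fun d hd w => ?_⟩
    rcases Finset.mem_insert.1 hd with rfl | hd
    · rw [pow_succ] at hn'
      have := LinearMap.congr_fun hn' w
      simp only [LinearMap.comp_apply, Module.End.mul_apply, LinearMap.sub_apply,
        Module.End.one_apply, map_sub, LinearMap.zero_apply, sub_eq_zero] at this
      exact this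
    · exact hfix n d hd w

theorem hh_mul (l m : Fˣ) : hh (l * m) = hh l * hh m :=
  Subtype.ext (by
    rw [Matrix.SpecialLinearGroup.coe_mul]
    simp [hh, mul_comm])

include ι p in
theorem exists_eigen_dual [Nontrivial V] :
    ∃ (f : Module.Dual K V) (b : ℕ), f ≠ 0 ∧ b < Fintype.card F - 1 ∧
      (∀ c w, f (π (uu c) w) = f w) ∧ ∀ (l : Fˣ) w, f (π (hh l) w) = ι l ^ b * f w := by
  classical
  obtain ⟨l₀, hl₀⟩ := IsCyclic.exists_generator (α := Fˣ)
  let S : Submodule K (Module.Dual K V) :=
    { carrier := {f | ∀ c w, f (π (uu c) w) = f w}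
      zero_mem' := fun _ _ => rfl
      add_mem' := fun hf hg c w => by simp [hf c w, hg c w]
      smul_mem' := fun a f hf c w => by simp [hf c w] }
  obtain ⟨f₁, hf₁0, hf₁⟩ := exists_invariant_dual ι p π
  haveI : Nontrivial S := nontrivial_of_ne (⟨f₁, hf₁⟩ : S) 0 fun e => hf₁0 (congrArg Subtype.val e)
  letI : AddCommGroup S := Submodule.addCommGroup S
  let T : Module.End K S :=
    { toFun := fun f => ⟨f.1 ∘ₗ π (hh l₀), fun c w => by
        have e : hh l₀ * uu c = uu (((l₀⁻¹ : Fˣ) : F) * c * ((l₀⁻¹ : Fˣ) : F)) * hh l₀ :=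
          Subtype.ext (by
            rw [Matrix.SpecialLinearGroup.coe_mul, Matrix.SpecialLinearGroup.coe_mul]
            simp [hh, uu, mul_assoc])
        simp only [LinearMap.comp_apply]
        rw [← Module.End.mul_apply, ← map_mul, e, map_mul, Module.End.mul_apply]
        exact f.2 _ _⟩
      map_add' := fun f g => Subtype.ext (LinearMap.ext fun w => by simp)
      map_smul' := fun a f => Subtype.ext (LinearMap.ext fun w => by simp) }
  obtain ⟨μ, hμ⟩ := Module.End.exists_eigenvalue T
  obtain ⟨fS, hfS⟩ := hμ.exists_hasEigenvector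
  obtain ⟨f, hfU⟩ := fS
  have hfne : f ≠ 0 := fun e => hfS.2 (Subtype.ext e)
  have hT : ∀ w, f (π (hh l₀) w) = μ * f w := fun w => by
    have := congrArg (fun g : S => (g : Module.Dual K V) w) hfS.apply_eq_smul
    simpa [T] using this
  have hpowT : ∀ (n : ℕ) w, f (π (hh (l₀ ^ n)) w) = μ ^ n * f w := by
    intro n
    induction n with
    | zero =>
      intro w
      rw [show hh (l₀ ^ 0) = 1 from Subtype.ext (by simp [hh, Matrix.one_fin_two]), map_one]
      simp
    | succ n ih =>
      intro w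
      rw [pow_succ', hh_mul, map_mul, Module.End.mul_apply, hT, ih]
      ring
  obtain ⟨w₀, hw₀⟩ : ∃ w, f w ≠ 0 := by
    by_contra hno
    push Not at hno
    exact hfne (LinearMap.ext hno)
  have hord : orderOf l₀ = Fintype.card F - 1 := by
    rw [orderOf_eq_card_of_forall_mem_zpowers hl₀, Nat.card_eq_fintype_card, Fintype.card_units]
  have hμpow : μ ^ (Fintype.card F - 1) = 1 := by
    have h1 := hpowT (Fintype.card F - 1) w₀
    rw [← hord, pow_orderOf_eq_one, show hh (1 : Fˣ) = 1 from
      Subtype.ext (by simp [hh, Matrix.one_fin_two]), map_one, Module.End.one_apply, hord] at h1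
    exact (mul_eq_right₀ hw₀).1 h1.symm
  have hq : 0 < Fintype.card F - 1 := Nat.sub_pos_of_lt Fintype.one_lt_card
  haveI : NeZero (Fintype.card F - 1) := ⟨hq.ne'⟩
  have hprim : IsPrimitiveRoot (ι (l₀ : F)) (Fintype.card F - 1) := by
    refine IsPrimitiveRoot.map_of_injective ?_ ι.injective
    rw [← hord]
    exact IsPrimitiveRoot.coe_units_iff.2 (IsPrimitiveRoot.orderOf l₀)
  obtain ⟨b, hb, hbμ⟩ := hprim.eq_pow_of_pow_eq_one hμpow
  refine ⟨f, b, hfne, hb, hfU, fun l w => ?_⟩
  obtain ⟨n, rfl⟩ := (Submonoid.mem_powers_iff _ _).1 ((mem_powers_iff_mem_zpowers).2 (hl₀ l))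
  rw [hpowT, ← hbμ, Units.val_pow_eq_pow_val, map_pow, ← pow_mul, ← pow_mul, mul_comm b n]

include ι p in
theorem exists_equiv_La [Nontrivial V]
    (hirr : ∀ W : Submodule K V, (∀ g, ∀ w ∈ W, π g w ∈ W) → W = ⊥ ∨ W = ⊤) :
    ∃ a < Fintype.card F, ∃ e : La K a ≃ₗ[K] V, ∀ g f, e (actL a (mapM ι g) f) = π g (e f) := by
  classical
  obtain ⟨f, b, hf0, hb, hfU, hfT⟩ := exists_eigen_dual ι p π
  choose sec hsec using fun v : Pt F => exists_bottom v
  let Φ : V →ₗ[K] (Pt F → K) :=
    { toFun := fun w v => f (π (sec v) w)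
      map_add' := fun x y => funext fun v => by simp
      map_smul' := fun c x => funext fun v => by simp }
  have hΦ : ∀ (g : SL(2, F)) (v : Pt F), (g : Matrix (Fin 2) (Fin 2) F) 1 = v.1 →
      ∀ w, f (π g w) = Φ w v := by
    intro g v hg w
    obtain ⟨c, hc⟩ := eq_uu_of_bottom (g := g * (sec v)⁻¹) (by
      have e1 : (g : Matrix (Fin 2) (Fin 2) F) 1 =
          (![0, 1] : Fin 2 → F) ᵥ* (sec v : Matrix (Fin 2) (Fin 2) F) := by
        rw [hg, ← hsec v]
        funext j
        simp [Matrix.vecMul, dotProduct, Fin.sum_univ_two]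
      rw [Matrix.SpecialLinearGroup.coe_mul]
      show (g : Matrix (Fin 2) (Fin 2) F) 1 ᵥ* _ = _
      rw [e1, Matrix.vecMul_vecMul, ← Matrix.SpecialLinearGroup.coe_mul, mul_inv_cancel,
        Matrix.SpecialLinearGroup.coe_one, Matrix.vecMul_one])
    show f (π g w) = f (π (sec v) w)
    rw [show g = uu c * sec v by rw [← hc, inv_mul_cancel_right], map_mul, Module.End.mul_apply,
      hfU]
  have hequiv : ∀ g w, Φ (π g w) = trans g (Φ w) := by
    intro g w
    funext v
    show f (π (sec v) (π g w)) = Φ w (ptMul v g)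
    rw [← Module.End.mul_apply, ← map_mul]
    refine hΦ _ _ ?_ w
    rw [Matrix.SpecialLinearGroup.coe_mul]
    show (sec v : Matrix (Fin 2) (Fin 2) F) 1 ᵥ* _ = _
    rw [hsec]
    rfl
  have hhom : ∀ (w : V) (v : Pt F) (l : Fˣ) (v' : Pt F), v'.1 = (l : F) • v.1 →
      Φ w v' = ι l ^ b * Φ w v := by
    intro w v l v' e
    rw [← hΦ (hh l * sec v) v' (by
      rw [e, Matrix.SpecialLinearGroup.coe_mul, ← hsec v]
      funext j
      simp [hh, Matrix.mul_apply, Fin.sum_univ_two]) w, map_mul, Module.End.mul_apply, hfT]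
    rfl
  have hker : LinearMap.ker Φ = ⊥ := by
    refine (hirr _ fun g w hw => ?_).resolve_right fun e => hf0 ?_
    · rw [LinearMap.mem_ker] at hw ⊢
      rw [hequiv, hw, map_zero]
    · refine LinearMap.ext fun w => ?_
      have h1 : Φ w = 0 := LinearMap.mem_ker.1 (e ▸ Submodule.mem_top)
      have := hΦ 1 ⟨![0, 1], fun e => one_ne_zero (congrFun e 1)⟩ (by
        funext j; fin_cases j <;> simp) w
      simpa [h1] using this
  have hinj : Function.Injective Φ := LinearMap.ker_eq_bot.1 hker
  set W : Submodule K (Pt F → K) := LinearMap.range Φ with hW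
  have hWinv : ∀ g, ∀ φ ∈ W, trans g φ ∈ W := by
    rintro g _ ⟨w, rfl⟩
    exact ⟨π g w, hequiv g w⟩
  -- a vector fixed by the unipotent elements
  obtain ⟨w₁, hw₁0, hw₁⟩ : ∃ w : V, w ≠ 0 ∧ ∀ c, π (uu c) w = w := by
    let πd : SL(2, F) →* Module.End K (Module.Dual K V) :=
      { toFun := fun g => (π g⁻¹).dualMap
        map_one' := by ext; simp
        map_mul' := fun g h => by ext; simp }
    obtain ⟨ψ, hψ0, hψ⟩ := exists_invariant_dual ι p πd
    obtain ⟨w, rfl⟩ := (Module.evalEquiv K V).surjective ψ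
    refine ⟨w, fun e => hψ0 (by rw [e, map_zero]), fun c => ?_⟩
    rw [← sub_eq_zero, ← Module.forall_dual_apply_eq_zero_iff K]
    intro φ
    have := hψ (-c) φ
    have hinv : (uu (-c) : SL(2, F))⁻¹ = uu c := inv_eq_of_mul_eq_one_right (Subtype.ext (by
      rw [Matrix.SpecialLinearGroup.coe_mul]
      simp [uu, Matrix.one_fin_two]))
    simp [πd, hinv] at this
    simp [this]
  set φ := Φ w₁ with hφdef
  have hφW : φ ∈ W := ⟨w₁, rfl⟩
  have hφfix : ∀ (c : F) (v : Pt F), φ (ptMul v (uu c)) = φ v := fun c v => by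
    have := congrFun (hequiv (uu c) w₁) v
    rw [hw₁] at this
    exact this.symm
  let e1 : Pt F := ⟨![1, 0], fun e => one_ne_zero (congrFun e 0)⟩
  let e2 : Pt F := ⟨![0, 1], fun e => one_ne_zero (congrFun e 1)⟩
  have hA : ∀ (v : Pt F) (h : v.1 0 ≠ 0), φ v = φ e1 * ι (v.1 0) ^ b := by
    intro v h
    rw [← hφfix (-(v.1 1 / v.1 0)) v, mul_comm]
    refine hhom w₁ e1 (Units.mk0 _ h) _ ?_
    funext j
    fin_cases j
    · show (ptMul v (uu _)).1 0 = (v.1 0) • (1 : F)
      rw [(ptMul_uu v _).1, smul_eq_mul, mul_one]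
    · show (ptMul v (uu _)).1 1 = (v.1 0) • (0 : F)
      rw [(ptMul_uu v _).2, smul_zero]
      field_simp
      ring
  have hB : ∀ (v : Pt F) (h : v.1 1 ≠ 0), v.1 0 = 0 → φ v = φ e2 * ι (v.1 1) ^ b := by
    intro v h h0
    rw [mul_comm]
    refine hhom w₁ e2 (Units.mk0 _ h) _ ?_
    funext j
    fin_cases j <;> simp [e2, h0]
  -- a power of a linear form inside
  obtain ⟨a, ha, haW⟩ : ∃ a < Fintype.card F, res ι (pw a ![1, 0]) ∈ W := by
    set R : Pt F → K := ∑ c : F, trans (uu c) (trans (ss F) φ) with hR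
    have hRW : R ∈ W := Submodule.sum_mem _ fun c _ => hWinv _ _ (hWinv _ _ hφW)
    have hRval : ∀ v : Pt F, R v =
        if v.1 0 = 0 then 0
        else φ e1 * (∑ t : Fˣ, ι (t : F) ^ b) + φ e2 * ι (v.1 0) ^ b := by
      intro v
      simp only [hR, Finset.sum_apply]
      show ∑ c : F, φ (ptMul (ptMul v (uu c)) (ss F)) = _
      have hcoord : ∀ c : F, (ptMul (ptMul v (uu c)) (ss F)).1 0 = -(v.1 1 + c * v.1 0) ∧
          (ptMul (ptMul v (uu c)) (ss F)).1 1 = v.1 0 := fun c => by
        constructor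
        · rw [(ptMul_ss _).1, (ptMul_uu v c).2]; ring
        · rw [(ptMul_ss _).2, (ptMul_uu v c).1]
      split_ifs with h0
      · have h1 : v.1 1 ≠ 0 := fun h1 => v.2 (funext fun i => by fin_cases i <;> assumption)
        have hc : ∀ c : F, φ (ptMul (ptMul v (uu c)) (ss F)) = φ e1 * ι (-(v.1 1)) ^ b := fun c => by
          rw [hA _ (by rw [(hcoord c).1, h0, mul_zero, add_zero]; exact neg_ne_zero.2 h1),
            (hcoord c).1, h0, mul_zero, add_zero]
        rw [Finset.sum_congr rfl fun c _ => hc c, Finset.sum_const, Finset.card_univ, nsmul_eq_mul]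
        haveI : CharP F p := (RingHom.charP_iff ι ι.injective p).2 inferInstance
        obtain ⟨n, -, hn⟩ := FiniteField.card F p
        rw [hn, Nat.cast_pow, CharP.cast_eq_zero, zero_pow n.ne_zero, zero_mul]
      · have hinj0 : Function.Bijective fun c : F => -(v.1 1 + c * v.1 0) := by
          refine (Finite.injective_iff_bijective).1 fun c d e => ?_
          exact mul_right_cancel₀ h0 (add_left_cancel (neg_inj.1 e))
        let G : F → K := fun t => if t = 0 then φ e2 * ι (v.1 0) ^ b else φ e1 * ι t ^ b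
        have hc : ∀ c : F, φ (ptMul (ptMul v (uu c)) (ss F)) = G (-(v.1 1 + c * v.1 0)) := fun c => by
          simp only [G]
          split_ifs with ht
          · rw [hB _ (by rw [(hcoord c).2]; exact h0) (by rw [(hcoord c).1]; exact ht), (hcoord c).2]
          · rw [hA _ (by rw [(hcoord c).1]; exact ht), (hcoord c).1]
        rw [Finset.sum_congr rfl fun c _ => hc c, Fintype.sum_bijective _ hinj0 _ G fun _ => rfl,
          ← Finset.add_sum_erase _ _ (Finset.mem_univ (0 : F))]
        rw [show G 0 = φ e2 * ι (v.1 0) ^ b by simp [G], add_comm]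
        congr 1
        rw [Finset.mul_sum]
        symm
        refine Finset.sum_bij (fun t _ => (t : F)) (fun t _ => Finset.mem_erase.2
          ⟨t.ne_zero, Finset.mem_univ _⟩) (fun s _ t _ e => Units.ext e)
          (fun t ht => ⟨Units.mk0 t (Finset.mem_erase.1 ht).1, Finset.mem_univ _, rfl⟩)
          (fun t _ => by simp [G, t.ne_zero])
    have hsum : ∑ t : Fˣ, ι (t : F) ^ b = if b = 0 then -1 else 0 := by
      rw [Finset.sum_congr rfl fun (t : Fˣ) _ => (map_pow ι (t : F) b).symm, ← map_sum,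
        FiniteField.sum_pow_units F b]
      by_cases hb0 : b = 0
      · rw [if_pos hb0, if_pos (hb0 ▸ dvd_zero _), map_neg, map_one]
      · rw [if_neg hb0, if_neg (fun h => hb0 (Nat.eq_zero_of_dvd_of_lt h hb)), map_zero]
    have hpw : ∀ (a : ℕ) (v : Pt F), res ι (pw (K := K) a ![1, 0]) v = ι (v.1 0) ^ a := fun a v => by
      simp [res, pw, dotProduct, Fin.sum_univ_two]
    have hφ1 : φ ≠ 0 := fun e => hw₁0 (hinj (by rw [map_zero]; exact e))
    rcases Nat.eq_zero_or_pos b with rfl | hbpos
    · by_cases h12 : φ e2 - φ e1 = 0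
      · have heq : φ e2 = φ e1 := sub_eq_zero.1 h12
        have hφc : φ = φ e1 • res ι (pw 0 ![1, 0]) := by
          funext v
          rw [Pi.smul_apply, hpw, pow_zero, smul_eq_mul, mul_one]
          by_cases h0 : v.1 0 = 0
          · have h1 : v.1 1 ≠ 0 := fun h1 => v.2 (funext fun i => by fin_cases i <;> assumption)
            rw [hB v h1 h0, pow_zero, mul_one, heq]
          · rw [hA v h0, pow_zero, mul_one]
        have hne : φ e1 ≠ 0 := fun e => hφ1 (by rw [hφc, e, zero_smul])
        refine ⟨0, Fintype.card_pos, ?_⟩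
        rw [hφc] at hφW
        exact (W.smul_mem_iff hne).1 hφW
      · refine ⟨Fintype.card F - 1, Nat.sub_lt Fintype.card_pos one_pos, ?_⟩
        refine (W.smul_mem_iff h12).1 ?_
        convert hRW using 1
        funext v
        rw [Pi.smul_apply, hpw, hRval, hsum, if_pos rfl, smul_eq_mul, pow_zero]
        split_ifs with h0
        · rw [h0, map_zero, zero_pow (by omega), mul_zero]
        · rw [← map_pow, FiniteField.pow_card_sub_one_eq_one _ h0, map_one]
          ring
    · have hb1 : b ≠ 0 := hbpos.ne'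
      refine ⟨b, by omega, ?_⟩
      by_cases h2 : φ e2 = 0
      · have hφc : φ = φ e1 • res ι (pw b ![1, 0]) := by
          funext v
          rw [Pi.smul_apply, hpw, smul_eq_mul]
          by_cases h0 : v.1 0 = 0
          · have h1 : v.1 1 ≠ 0 := fun h1 => v.2 (funext fun i => by fin_cases i <;> assumption)
            rw [hB v h1 h0, h2, h0, map_zero, zero_pow hb1]
            ring
          · exact hA v h0
        have hne : φ e1 ≠ 0 := fun e => hφ1 (by rw [hφc, e, zero_smul])
        rw [hφc] at hφW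
        exact (W.smul_mem_iff hne).1 hφW
      · refine (W.smul_mem_iff h2).1 ?_
        convert hRW using 1
        funext v
        rw [Pi.smul_apply, hpw, hRval, hsum, if_neg hb1, smul_eq_mul]
        split_ifs with h0
        · rw [h0, map_zero, zero_pow hb1, mul_zero]
        · ring
  -- the whole module inside
  let ρ : La K a →ₗ[K] (Pt F → K) := (res ι).comp (La K a).subtype
  have hρinj : Function.Injective ρ := by
    refine (injective_iff_map_eq_zero ρ).2 fun x hx => Subtype.ext ?_
    exact res_injective_on ι p ha x.2 hx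
  have hρW : ∀ x, ρ x ∈ W := by
    suffices hgen : La K a ≤ W.comap (res ι) from fun x => hgen x.2
    have hL : La K a = Submodule.span K (Set.range fun c : F => pw a ![1, ι c]) := by
      refine le_antisymm ?_ (Submodule.span_mono ?_)
      · rw [La_eq_span ι p ha, Submodule.span_le]
        rintro _ ⟨i, rfl⟩
        exact mono_mem_span ι p ha i.2
      · rintro _ ⟨c, rfl⟩; exact ⟨_, rfl⟩
    rw [hL, Submodule.span_le]
    rintro _ ⟨c, rfl⟩
    let g : SL(2, F) := ⟨!![1, 0; c, 1], by simp [Matrix.det_fin_two]⟩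
    have e : pw a (![1, ι c] : Fin 2 → K) = act (mapM ι g) (pw a ![1, 0]) := by
      rw [act_pw]
      congr 1
      funext i
      rw [mapM_apply, Matrix.mulVec, dotProduct, Fin.sum_univ_two]
      fin_cases i <;> simp [g]
    show res ι (pw a (![1, ι c] : Fin 2 → K)) ∈ W
    rw [e, res_act]
    exact hWinv _ _ haW
  let eW : V ≃ₗ[K] W := LinearEquiv.ofInjective Φ hinj
  let ρW : La K a →ₗ[K] W := ρ.codRestrict W hρW
  let T : La K a →ₗ[K] V := eW.symm.toLinearMap.comp ρW
  have hTΦ : ∀ x, Φ (T x) = ρ x := fun x => congrArg Subtype.val (eW.apply_symm_apply (ρW x))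
  have hTinj : Function.Injective T := fun x y e => hρinj (by rw [← hTΦ, ← hTΦ, e])
  have hTeq : ∀ g x, T (actL a (mapM ι g) x) = π g (T x) := by
    intro g x
    refine hinj ?_
    rw [hTΦ, hequiv, hTΦ]
    exact res_act ι g x.1
  have hTtop : LinearMap.range T = ⊤ := by
    refine (hirr _ ?_).resolve_left fun e => ?_
    · rintro g _ ⟨x, rfl⟩
      exact ⟨actL a (mapM ι g) x, hTeq g x⟩
    · have hx : pw a (![1, 0] : Fin 2 → K) ∈ La K a := Submodule.subset_span ⟨_, rfl⟩
      have h0 : T ⟨_, hx⟩ = 0 := by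
        have : T ⟨_, hx⟩ ∈ LinearMap.range T := ⟨_, rfl⟩
        rwa [e, Submodule.mem_bot] at this
      have h1 := congrFun (congrArg Subtype.val (hTinj (h0.trans (map_zero T).symm))) ![1, 0]
      simp [pw, dotProduct, Fin.sum_univ_two] at h1
  exact ⟨a, ha, LinearEquiv.ofBijective T ⟨hTinj, LinearMap.range_eq_top.1 hTtop⟩, hTeq⟩

end Classify

include ι p in
/-- The weights of a representation, with the characteristic polynomials of the elements that are
diagonal over the big field. -/
theorem exists_weights [IsAlgClosed K] {V : Type*} [AddCommGroup V] [Module K V]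
    [FiniteDimensional K V] (π : SL(2, F) →* Module.End K V) :
    ∃ L : Multiset ℕ, (∀ a ∈ L, a < Fintype.card F) ∧
      ∀ (g : SL(2, F)) (P : GL (Fin 2) K) (α : Kˣ),
        mapM ι g = (P : Matrix (Fin 2) (Fin 2) K) * Matrix.diagonal ![(α : K), ((α⁻¹ : Kˣ) : K)] *
          ((P⁻¹ : GL (Fin 2) K) : Matrix (Fin 2) (Fin 2) K) →
        (π g).charpoly = (L.map fun a => ∏ i ∈ supp p a,
          (X - C ((α ^ ((a : ℤ) - 2 * i) : Kˣ) : K))).prod := by
  induction hn : finrank K V using Nat.strong_induction_on generalizing V with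
  | _ n ih =>
    subst hn
    by_cases hV : finrank K V = 0
    · refine ⟨0, by simp, fun g P α _ => ?_⟩
      rw [Multiset.map_zero, Multiset.prod_zero]
      exact eq_one_of_monic_natDegree_zero (LinearMap.charpoly_monic _)
        (by rw [LinearMap.charpoly_natDegree, hV])
    haveI : Nontrivial V := Module.nontrivial_of_finrank_pos (Nat.pos_of_ne_zero hV)
    by_cases hirr : ∀ W : Submodule K V, (∀ g, ∀ w ∈ W, π g w ∈ W) → W = ⊥ ∨ W = ⊤
    · obtain ⟨a, ha, e, he⟩ := exists_equiv_La ι p π hirr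
      haveI := finite_La ι p ha
      refine ⟨{a}, by simp [ha], fun g P α hg => ?_⟩
      rw [Multiset.map_singleton, Multiset.prod_singleton, ← charpoly_actL_diag ι p ha α]
      have h1 : π g = e.conj (actL a (mapM ι g)) := LinearMap.ext fun v => by
        rw [LinearEquiv.conj_apply_apply, he, e.apply_symm_apply]
      rw [h1, LinearEquiv.charpoly_conj, hg, map_mul, map_mul]
      let eP : La K a ≃ₗ[K] La K a := LinearEquiv.ofLinear
        (actL a (P : Matrix (Fin 2) (Fin 2) K))
        (actL a ((P⁻¹ : GL (Fin 2) K) : Matrix (Fin 2) (Fin 2) K))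
        (by rw [← Module.End.mul_eq_comp, ← map_mul, ← Units.val_mul, mul_inv_cancel, Units.val_one,
          map_one]; rfl)
        (by rw [← Module.End.mul_eq_comp, ← map_mul, ← Units.val_mul, inv_mul_cancel, Units.val_one,
          map_one]; rfl)
      rw [show actL a (P : Matrix (Fin 2) (Fin 2) K) *
          actL a (Matrix.diagonal ![(α : K), ((α⁻¹ : Kˣ) : K)]) *
          actL a ((P⁻¹ : GL (Fin 2) K) : Matrix (Fin 2) (Fin 2) K) =
          eP.conj (actL a (Matrix.diagonal ![(α : K), ((α⁻¹ : Kˣ) : K)])) from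
        LinearMap.ext fun v => rfl, LinearEquiv.charpoly_conj]
    · push Not at hirr
      obtain ⟨W, hW, hWb, hWt⟩ := hirr
      have hle : ∀ g, W ≤ W.comap (π g) := fun g w hw => hW g w hw
      let πW : SL(2, F) →* Module.End K W :=
        { toFun := fun g => (π g).restrict (hle g)
          map_one' := LinearMap.ext fun w => Subtype.ext (by simp)
          map_mul' := fun g h => LinearMap.ext fun w => Subtype.ext (by simp) }
      let πQ : SL(2, F) →* Module.End K (V ⧸ W) :=
        { toFun := fun g => W.mapQ W (π g) (hle g)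
          map_one' := Submodule.linearMap_qext _ (LinearMap.ext fun w => by simp)
          map_mul' := fun g h => Submodule.linearMap_qext _ (LinearMap.ext fun w => by simp) }
      have h1 : finrank K W < finrank K V := Submodule.finrank_lt (lt_top_iff_ne_top.2 hWt).ne
      have h2 : finrank K (V ⧸ W) < finrank K V := by
        have e := Submodule.finrank_quotient_add_finrank W
        have : 0 < finrank K W := Nat.pos_of_ne_zero fun h0 => hWb (Submodule.finrank_eq_zero.1 h0)
        omega
      obtain ⟨L₁, hL₁, h₁⟩ := ih _ h1 πW rfl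
      obtain ⟨L₂, hL₂, h₂⟩ := ih _ h2 πQ rfl
      refine ⟨L₁ + L₂, fun a ha => (Multiset.mem_add.1 ha).elim (hL₁ a) (hL₂ a), fun g P α hg => ?_⟩
      rw [Multiset.map_add, Multiset.prod_add, ← h₁ g P α hg, ← h₂ g P α hg,
        CfsgLib.GLCuspidal.charpoly_split (π g) W (hle g)]
      rfl

end CfsgLib.E8Small
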