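import Cfsg.Agent.Lib.E8Small.Tables
import Cfsg.Agent.Lib.Chevalley.OrderE8
import Cfsg.Agent.Lib.Chevalley.TwistLang
import Mathlib.LinearAlgebra.Matrix.Charpoly.Coeff

/-!
In the group of type E8 over the field with three elements, an element of order 73 or 61 has the
eigenvalues of an element of a twisted torus of order `p ^ 2`.
-/

set_option autoImplicit false
set_option linter.unusedSectionVars false
set_option maxRecDepth 100000

open Matrix Polynomial

namespace CfsgLib.E8Small

open Cfsg.Lie CfsgLib.Chevalley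
open CfsgLib.KnownSimple.ChevalleyLang (Omega exists_preimage)

theorem fullE8 : Full chevE8 auxE8 := ⟨⟨cert_E8, posE8, by simp⟩, extraE8⟩

/-- The inverse of the Cartan matrix. -/
def invN (i j : Fin chevE8.rank) : ℤ := (invTab.getD i []).getD j 0

theorem invN_spec : ∀ i k, ∑ j, cartanMat chevE8 i j * invN j k = if i = k then (1 : ℤ) else 0 := by
  decide +kernel

theorem injective_torusHom {K : Type*} [Field K] : Function.Injective (torusHom chevE8 K) :=
  Twist.torusHom_injective_of_inverse (N := invN) invN_spec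
    fun j => fullE8.cert.wf.simple_lt j j.isLt

/-- A fundamental reflection on exponents. -/
def expRefl (i : Fin chevE8.rank) (v : Fin chevE8.rank → ℤ) : Fin chevE8.rank → ℤ :=
  fun k => v k - if k = i then ∑ j, v j * chevE8.cartan j (chevE8.simple i) else 0

/-- A word on exponents. -/
def expW (l : List (Fin chevE8.rank)) (v : Fin chevE8.rank → ℤ) : Fin chevE8.rank → ℤ :=
  l.foldr expRefl v

/-- A word on torus parameters. -/
noncomputable def wT {M : Type*} [Field M] (l : List (Fin chevE8.rank))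
    (c : Fin chevE8.rank → Mˣ) : Fin chevE8.rank → Mˣ :=
  l.foldr (reflTorus chevE8) c

theorem wT_zpow {K : Type*} [Field K] (α : Kˣ) (l : List (Fin chevE8.rank))
    (v : Fin chevE8.rank → ℤ) : wT l (fun k => α ^ v k) = fun k => α ^ expW l v k := by
  induction l with
  | nil => rfl
  | cons i l ih =>
    show reflTorus chevE8 i (wT l fun k => α ^ v k) = fun k => α ^ expRefl i (expW l v) k
    rw [ih]
    set u := expW l v
    have hchi : chi chevE8 (chevE8.simple i) (fun k => α ^ u k) =
        α ^ (∑ j, u j * chevE8.cartan j (chevE8.simple i)) := by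
      show ∏ k : Fin chevE8.rank, (α ^ u k) ^ chevE8.cartan k (chevE8.simple i) = _
      simp only [← _root_.zpow_mul]
      generalize (Finset.univ : Finset (Fin chevE8.rank)) = S
      induction S using Finset.induction_on with
      | empty => simp
      | insert a S ha ih => rw [Finset.prod_insert ha, Finset.sum_insert ha, ih, _root_.zpow_add]
    funext k
    rw [reflTorus, hchi, Pi.mul_apply, expRefl, _root_.zpow_sub]
    rcases eq_or_ne k i with rfl | hk
    · rw [Pi.mulSingle_eq_same, if_pos rfl]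
    · rw [Pi.mulSingle_eq_of_ne hk, if_neg hk, _root_.zpow_zero, inv_one]

/-- A list as a vector. -/
def vecI (w : List ℤ) (k : Fin chevE8.rank) : ℤ := w.getD k 0

/-- The trace follows the word. -/
noncomputable def chkB : List (Fin chevE8.rank) → List (List ℤ) → Bool
  | [], [_] => true
  | i :: l, w :: w' :: T =>
      (decide (∀ k, vecI w k = expRefl i (vecI w') k)) && chkB l (w' :: T)
  | _, _ => false

theorem chkB_spec : ∀ (l : List (Fin chevE8.rank)) (T : List (List ℤ)), chkB l T = true →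
    expW l (vecI (T.getLastD [])) = vecI (T.headD [])
  | [], [w], _ => rfl
  | [], [], h => by simp [chkB] at h
  | [], _ :: _ :: _, h => by simp [chkB] at h
  | _ :: _, [], h => by simp [chkB] at h
  | _ :: _, [_], h => by simp [chkB] at h
  | i :: l, w :: w' :: T, h => by
      simp only [chkB, Bool.and_eq_true, decide_eq_true_eq] at h
      have e := chkB_spec l (w' :: T) h.2
      show expRefl i (expW l (vecI ((w :: w' :: T).getLastD []))) = vecI w
      rw [show (w :: w' :: T).getLastD [] = (w' :: T).getLastD [] by simp [List.getLastD], e]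
      exact funext fun k => (h.1 k).symm

/-- The data of a twisted torus of order `p ^ 2`. -/
structure Tor (p : ℕ) where
  /-- the word -/
  word : List (Fin chevE8.rank)
  /-- the two vectors -/
  v0 : List ℕ
  /-- the two vectors -/
  v1 : List ℕ
  /-- residues at the roots -/
  r0 : List ℕ
  /-- residues at the roots -/
  r1 : List ℕ
  /-- traces -/
  t0 : List (List ℤ)
  /-- traces -/
  t1 : List (List ℤ)

variable {p : ℕ}

/-- Validity of one generator. -/
noncomputable def genB (p : ℕ) (l : List (Fin chevE8.rank)) (v r : List ℕ) (T : List (List ℤ)) : Bool :=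
  chkB l T && decide (∀ k : Fin chevE8.rank, vecI (T.getLastD []) k = 3 * (v.getD k 0 : ℤ)) &&
    decide (∀ k : Fin chevE8.rank, (vecI (T.headD []) k - (v.getD k 0 : ℤ)) % (p : ℤ) = 0) &&
    decide (∀ s : Fin chevE8.nroots,
      ((∑ k : Fin chevE8.rank, (v.getD k 0 : ℤ) * fCart auxE8 k s) - (r.getD s 0 : ℤ)) % (p : ℤ) = 0)

/-- Validity of the data. -/
noncomputable def Tor.okB (P : Tor p) : Bool :=
  genB p P.word P.v0 P.r0 P.t0 && genB p P.word P.v1 P.r1 P.t1 &&
    (P.v0.getD 6 0 == 1) && (P.v0.getD 7 0 == 0) && (P.v1.getD 6 0 == 0) && (P.v1.getD 7 0 == 1)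

/-- The residue at a coordinate of the element with parameters `a`, `b`. -/
def Tor.res (P : Tor p) (a b : ℕ) : chevE8.Idx → ℕ :=
  Sum.elim (fun _ => 0) fun s => (a * P.r0.getD s 0 + b * P.r1.getD s 0) % p

theorem prod_zpow_units {K : Type*} [Field K] (α : Kˣ) {ι : Type*} (S : Finset ι) (f : ι → ℤ) :
    ∏ k ∈ S, α ^ f k = α ^ ∑ k ∈ S, f k := by
  classical
  induction S using Finset.induction_on with
  | empty => simp
  | insert a S ha ih => rw [Finset.prod_insert ha, Finset.sum_insert ha, ih, _root_.zpow_add]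

theorem chi_wPerm {K : Type*} [Field K] : ∀ (l : List (Fin chevE8.rank)) (c : Fin chevE8.rank → Kˣ)
    (s : Fin chevE8.nroots),
    chi chevE8 (wPerm fullE8.cert l s : Fin chevE8.nroots) (wT l c) = chi chevE8 s c
  | [], c, s => rfl
  | i :: l, c, s => by
    rw [wPerm_cons, Equiv.Perm.mul_apply, rfPerm_apply]
    show chi chevE8 (rf fullE8.cert i _ : Fin chevE8.nroots) (reflTorus chevE8 i (wT l c)) = _
    rw [chi_reflTorus, chi_wPerm l c s]

section Torus

variable {K : Type*} [Field K] (α : Kˣ)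

/-- The torus parameters of a vector of exponents. -/
def par (v : List ℕ) : Fin chevE8.rank → Kˣ := fun k => α ^ (v.getD k 0 : ℤ)

theorem zpow_congr_mod {m : ℕ} (hα : α ^ m = 1) {x y : ℤ} (h : (x - y) % (m : ℤ) = 0) :
    α ^ x = α ^ y := by
  obtain ⟨t, ht⟩ := Int.dvd_of_emod_eq_zero h
  rw [show x = y + (m : ℤ) * t by linarith, _root_.zpow_add, _root_.zpow_mul, zpow_natCast, hα,
    _root_.one_zpow, mul_one]

theorem gen_spec {l : List (Fin chevE8.rank)} {v r : List ℕ} {T : List (List ℤ)}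
    (h : genB p l v r T = true) (hα : α ^ p = 1) :
    (∀ s : Fin chevE8.nroots, chi chevE8 (wPerm fullE8.cert l s : Fin chevE8.nroots) (par α v) =
      chi chevE8 s (par α v) ^ 3) ∧
    ∀ s : Fin chevE8.nroots, chi chevE8 s (par α v) = α ^ r.getD s 0 := by
  simp only [genB, Bool.and_eq_true, decide_eq_true_eq] at h
  obtain ⟨⟨⟨hT, hlast⟩, hhead⟩, hres⟩ := h
  refine ⟨fun s => ?_, fun s => ?_⟩
  · rw [← map_pow]
    have e1 : par α v ^ 3 = fun k => α ^ vecI (T.getLastD []) k := by
      funext k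
      rw [Pi.pow_apply, par, hlast k, ← zpow_natCast, ← _root_.zpow_mul, mul_comm]
      rfl
    have e2 : wT l (par α v ^ 3) = par α v := by
      rw [e1, wT_zpow, chkB_spec l T hT]
      exact funext fun k => zpow_congr_mod α hα (hhead k)
    conv_lhs => rw [← e2]
    exact chi_wPerm l _ s
  · show ∏ k : Fin chevE8.rank, (α ^ (v.getD k 0 : ℤ)) ^ chevE8.cartan k s = _
    simp only [← _root_.zpow_mul]
    rw [prod_zpow_units, ← zpow_natCast]
    refine zpow_congr_mod α hα ?_
    have e := hres s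
    have e2 : ∑ k : Fin chevE8.rank, (v.getD k 0 : ℤ) * chevE8.cartan k s =
        ∑ k : Fin chevE8.rank, (v.getD k 0 : ℤ) * fCart auxE8 k s :=
      Finset.sum_congr rfl fun k _ => by rw [fullE8.cert.fCart_eq k.isLt s.isLt]
    rw [e2]
    exact e

end Torus

instance : Fact (Nat.Prime 3) := ⟨Nat.prime_three⟩

/-- The big field. -/
abbrev Ω : Type := Omega chevE8 (ZMod 3)

/-- The entries in the big field. -/
noncomputable def toΩ (g : chevE8.group (ZMod 3)) : Matrix chevE8.Idx chevE8.Idx Ω :=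
  ((Twist.emb chevE8 (ZMod 3) Ω g : GL chevE8.Idx Ω) : Matrix chevE8.Idx chevE8.Idx Ω)

theorem exists_spectrum [hp : Fact p.Prime] (P : Tor p) (hP : P.okB = true)
    (hord : ¬ p ^ 3 ∣ Nat.card (chevE8.group (ZMod 3))) {ζ : Ω} (hζ : IsPrimitiveRoot ζ p)
    {g : chevE8.group (ZMod 3)} (hg : g ^ p = 1) (hg1 : g ≠ 1) :
    ∃ a < p, ∃ b < p, (a ≠ 0 ∨ b ≠ 0) ∧
      (toΩ g).charpoly = ∏ x : chevE8.Idx, (X - C (ζ ^ P.res a b x)) := by
  simp only [Tor.okB, Bool.and_eq_true, beq_iff_eq] at hP
  obtain ⟨⟨⟨⟨⟨h0, h1⟩, u06⟩, u07⟩, u16⟩, u17⟩ := hP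
  set α : Ωˣ := (hζ.isUnit hp.out.ne_zero).unit with hαdef
  have hαval : (α : Ω) = ζ := IsUnit.unit_spec _
  have hαp : α ^ p = 1 := Units.ext (by rw [Units.val_pow_eq_pow_val, hαval, hζ.pow_eq_one]; rfl)
  obtain ⟨hw0, hr0⟩ := gen_spec α h0 hαp
  obtain ⟨hw1, hr1⟩ := gen_spec α h1 hαp
  let cab : ℕ → ℕ → (Fin chevE8.rank → Ωˣ) := fun a b => par α P.v0 ^ a * par α P.v1 ^ b
  have hchi : ∀ a b (s : Fin chevE8.nroots), ((chi chevE8 s (cab a b) : Ωˣ) : Ω) =
      ζ ^ ((a * P.r0.getD s 0 + b * P.r1.getD s 0) % p) := by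
    intro a b s
    simp only [cab, map_mul, map_pow, hr0, hr1, ← pow_mul, ← pow_add, Units.val_pow_eq_pow_val, hαval]
    rw [← pow_eq_pow_mod _ hζ.pow_eq_one, mul_comm a, mul_comm b]
  obtain ⟨σ, hσ⟩ := Twist.exists_frobAlg chevE8 (ZMod 3)
  obtain ⟨f, hf, hfn⟩ := Twist.exists_frame fullE8 (N := invN) invN_spec hσ P.word
  obtain ⟨η, hA⟩ := acts_nW (F := Ω) fullE8 P.word
  have hmem : ∀ a b, ∃ x, Twist.emb chevE8 (ZMod 3) Ω x =
      f * torusHom chevE8 Ω (cab a b) * f⁻¹ := fun a b =>
    Twist.exists_emb_torus fullE8 injective_torusHom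
      (fun y hy => exists_preimage (by rw [← hσ]; exact hy)) hf hfn (fun y => by rw [hσ, ZMod.card])
      hA fun s => by
        simp only [cab, map_mul, map_pow, hw0, hw1, mul_pow]
        rw [← pow_mul, ← pow_mul, mul_comm 3 a, mul_comm 3 b, pow_mul, pow_mul]
  let cM : Multiplicative (ZMod p × ZMod p) →* (Fin chevE8.rank → Ωˣ) :=
    MonoidHom.mk' (fun x => cab (Multiplicative.toAdd x).1.val (Multiplicative.toAdd x).2.val)
      (fun x y => by
        have hpar : ∀ (v : List ℕ) (m n : ZMod p),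
            par α v ^ (m + n).val = par α v ^ m.val * par α v ^ n.val := fun v m n => by
          rw [← pow_add, ZMod.val_add]
          refine (pow_eq_pow_mod _ ?_).symm
          funext k
          rw [Pi.pow_apply, par, Pi.one_apply, zpow_natCast, ← pow_mul, mul_comm, pow_mul, hαp, one_pow]
        simp only [cab, toAdd_mul, Prod.fst_add, Prod.snd_add, hpar]
        exact mul_mul_mul_comm _ _ _ _)
  let ψ : Multiplicative (ZMod p × ZMod p) →* GL chevE8.Idx Ω :=
    (MulAut.conj f).toMonoidHom.comp ((torusHom chevE8 Ω).comp cM)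
  have hψ : Function.Injective ψ := by
    refine (MulAut.conj f).injective.comp (injective_torusHom.comp ?_)
    refine (injective_iff_map_eq_one cM).2 fun x hx => ?_
    have hprim : IsPrimitiveRoot α p := IsPrimitiveRoot.coe_units_iff.1 (hαval ▸ hζ)
    have key : ∀ m : ZMod p, α ^ m.val = 1 → m = 0 := fun m hm =>
      (ZMod.val_eq_zero m).1 (Nat.eq_zero_of_dvd_of_lt ((hprim.pow_eq_one_iff_dvd _).1 hm) m.val_lt)
    have e6 := congrFun hx (⟨6, by decide⟩ : Fin chevE8.rank)
    have e7 := congrFun hx (⟨7, by decide⟩ : Fin chevE8.rank)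
    simp only [cM, MonoidHom.mk'_apply, cab, Pi.mul_apply, Pi.pow_apply, par, u06, u07, u16, u17,
      Nat.cast_one, Nat.cast_zero, zpow_one, zpow_zero, one_pow, mul_one, one_mul, Pi.one_apply] at e6 e7
    exact Prod.ext (key _ e6) (key _ e7)
  let Xs : Subgroup (chevE8.group (ZMod 3)) := ψ.range.comap (Twist.emb chevE8 (ZMod 3) Ω)
  have hle : ψ.range ≤ (Twist.emb chevE8 (ZMod 3) Ω).range := by
    rintro _ ⟨x, rfl⟩
    obtain ⟨y, hy⟩ := hmem (Multiplicative.toAdd x).1.val (Multiplicative.toAdd x).2.val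
    exact ⟨y, hy⟩
  have hcard : Nat.card Xs = p ^ 2 := by
    have e := Subgroup.map_comap_eq_self hle
    calc Nat.card Xs = Nat.card (Xs.map (Twist.emb chevE8 (ZMod 3) Ω)) :=
          (Nat.card_congr (Xs.equivMapOfInjective _ Twist.emb_injective).toEquiv)
      _ = Nat.card ψ.range := by rw [e]
      _ = Nat.card (Multiplicative (ZMod p × ZMod p)) :=
          (Nat.card_congr (Equiv.ofInjective ψ hψ)).symm
      _ = p ^ 2 := by
          rw [Nat.card_congr Multiplicative.toAdd, Nat.card_prod, Nat.card_zmod, pow_two]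
  have hidx : ¬ p ∣ Xs.index := fun h => hord (by
    rw [← Xs.card_mul_index, hcard, pow_succ]
    exact Nat.mul_dvd_mul_left _ h)
  haveI : Finite (chevE8.group (ZMod 3)) := inferInstance
  have hP' : IsPGroup p (Subgroup.zpowers g) := by
    obtain ⟨j, -, hj⟩ := (Nat.dvd_prime_pow hp.out).1 (show orderOf g ∣ p ^ 1 by
      rw [pow_one]; exact orderOf_dvd_of_pow_eq_one hg)
    exact IsPGroup.of_card (by rw [Nat.card_zpowers, hj])
  obtain ⟨y, hy⟩ := hP'.nonempty_fixed_point_of_prime_not_dvd_card (chevE8.group (ZMod 3) ⧸ Xs) hidx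
  induction y using QuotientGroup.induction_on with
  | H c =>
    have e := hy ⟨g, Subgroup.mem_zpowers g⟩
    change ((g * c : chevE8.group (ZMod 3)) : chevE8.group (ZMod 3) ⧸ Xs) = (c : _ ⧸ Xs) at e
    rw [eq_comm, QuotientGroup.eq] at e
    obtain ⟨x, hx⟩ : c⁻¹ * (g * c) ∈ ψ.range.comap (Twist.emb chevE8 (ZMod 3) Ω) := e
    refine ⟨(Multiplicative.toAdd x).1.val, ZMod.val_lt _, (Multiplicative.toAdd x).2.val,
      ZMod.val_lt _, ?_, ?_⟩
    · by_contra h0
      push Not at h0
      have hx1 : x = 1 := Prod.ext ((ZMod.val_eq_zero _).1 h0.1) ((ZMod.val_eq_zero _).1 h0.2)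
      rw [hx1, map_one, eq_comm, ← map_one (Twist.emb chevE8 (ZMod 3) Ω)] at hx
      have := Twist.emb_injective hx
      apply hg1
      calc g = c * (c⁻¹ * (g * c)) * c⁻¹ := by group
        _ = 1 := by rw [this]; group
    · have hg' : Twist.emb chevE8 (ZMod 3) Ω g = (Twist.emb chevE8 (ZMod 3) Ω c * f) *
          torusHom chevE8 Ω (cM x) * (Twist.emb chevE8 (ZMod 3) Ω c * f)⁻¹ := by
        have hx' : f * torusHom chevE8 Ω (cM x) * f⁻¹ =
            Twist.emb chevE8 (ZMod 3) Ω (c⁻¹ * (g * c)) := hx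
        rw [map_mul, map_inv, map_mul] at hx'
        calc _ = Twist.emb chevE8 (ZMod 3) Ω c * (f * torusHom chevE8 Ω (cM x) * f⁻¹) *
              (Twist.emb chevE8 (ZMod 3) Ω c)⁻¹ := by rw [hx']; group
          _ = _ := by group
      rw [toΩ, hg', Units.val_mul _ (_)⁻¹, Units.val_mul, Matrix.coe_units_inv, Matrix.charpoly_units_conj, coe_torusHom,
        Matrix.charpoly_diagonal]
      refine Finset.prod_congr rfl fun z _ => ?_
      rcases z with z | z
      · simp [Tor.res]
      · simp only [Sum.elim_inr, Tor.res, cM, MonoidHom.mk'_apply, hchi]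

end CfsgLib.E8Small
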