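import Cfsg.Agent.Lib.E8Small.SLWeights
import Cfsg.Agent.Lib.E8Small.Cert
import Mathlib.Data.Nat.Choose.Lucas

/-!
Weight multisets of `SL(2, 3 ^ (k + 1))`: uniqueness, stability under cubing and the orbit counts.
-/

set_option autoImplicit false
set_option linter.unusedSectionVars false
set_option maxRecDepth 100000

namespace CfsgLib.E8Small

theorem mem_supp_step {a i : ℕ} : i ∈ supp 3 a ↔ i % 3 ≤ a % 3 ∧ i / 3 ∈ supp 3 (a / 3) := by
  haveI : Fact (Nat.Prime 3) := ⟨Nat.prime_three⟩
  have small : ∀ x < 3, ∀ y < 3, (3 ∣ Nat.choose x y ↔ x < y) := by decide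
  have hL : a.choose i ≡ (a % 3).choose (i % 3) * (a / 3).choose (i / 3) [MOD 3] :=
    Choose.choose_modEq_choose_mod_mul_choose_div_nat
  have hd : 3 ∣ a.choose i ↔ 3 ∣ (a % 3).choose (i % 3) ∨ 3 ∣ (a / 3).choose (i / 3) := by
    rw [← Nat.prime_three.dvd_mul, hL.dvd_iff dvd_rfl]
  rw [mem_supp, mem_supp, hd, small _ (Nat.mod_lt _ (by norm_num)) _ (Nat.mod_lt _ (by norm_num))]
  constructor
  · intro h
    push Not at h
    exact ⟨h.2.1, Nat.div_le_div_right h.1, h.2.2⟩
  · intro h
    refine ⟨?_, fun e => ?_⟩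
    · have := Nat.div_add_mod a 3
      have := Nat.div_add_mod i 3
      have := h.2.1
      omega
    · rcases e with e | e
      · omega
      · exact h.2.2 e

theorem mem_supp_lt {a i : ℕ} (ha : a < 3) : i ∈ supp 3 a ↔ i ≤ a := by
  rw [mem_supp]
  refine ⟨fun h => h.1, fun h => ⟨h, ?_⟩⟩
  interval_cases a <;> interval_cases i <;> decide

theorem mem_supp_split : ∀ (k a i : ℕ), i ∈ supp 3 a ↔
    i % 3 ^ k ∈ supp 3 (a % 3 ^ k) ∧ i / 3 ^ k ∈ supp 3 (a / 3 ^ k)
  | 0, a, i => by simp [Nat.mod_one, mem_supp]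
  | k + 1, a, i => by
    rw [mem_supp_step (a := a), mem_supp_split k (a / 3) (i / 3),
      mem_supp_step (a := a % 3 ^ (k + 1)), Nat.div_div_eq_div_mul, Nat.div_div_eq_div_mul,
      ← Nat.pow_succ', Nat.mod_mod_of_dvd _ (dvd_pow_self 3 k.succ_ne_zero),
      Nat.mod_mod_of_dvd _ (dvd_pow_self 3 k.succ_ne_zero), Nat.pow_succ',
      Nat.mod_mul_right_div_self, Nat.mod_mul_right_div_self, and_assoc]

/-- The supports, by digits. -/
def suppL : ℕ → ℕ → List ℕ
  | 0, _ => [0]
  | k + 1, a => (suppL k (a / 3)).flatMap fun j => (List.range (a % 3 + 1)).map (3 * j + ·)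

theorem suppL_spec : ∀ (k a : ℕ), a < 3 ^ k →
    (suppL k a).Nodup ∧ ∀ i, i ∈ suppL k a ↔ i ∈ supp 3 a
  | 0, a, h => by
    rw [pow_zero] at h
    obtain rfl : a = 0 := by omega
    exact ⟨by simp [suppL], fun i => by rw [mem_supp_lt (by norm_num)]; simp [suppL]⟩
  | k + 1, a, h => by
    obtain ⟨hn, hm⟩ := suppL_spec k (a / 3) (Nat.div_lt_iff_lt_mul (by norm_num) |>.2 (by
      rwa [← pow_succ]))
    have key : ∀ i, i ∈ suppL (k + 1) a ↔ i % 3 ≤ a % 3 ∧ i / 3 ∈ suppL k (a / 3) := by
      intro i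
      simp only [suppL, List.mem_flatMap, List.mem_map, List.mem_range]
      constructor
      · rintro ⟨j, hj, r, hr, rfl⟩
        have := Nat.mod_lt a (show 3 > 0 by norm_num)
        rw [show (3 * j + r) % 3 = r by omega, show (3 * j + r) / 3 = j by omega]
        exact ⟨by omega, hj⟩
      · rintro ⟨h1, h2⟩
        exact ⟨i / 3, h2, i % 3, by omega, Nat.div_add_mod i 3⟩
    refine ⟨?_, fun i => by rw [key, hm, ← mem_supp_step]⟩
    simp only [suppL]
    refine List.nodup_flatMap.2 ⟨fun j _ => List.nodup_range.map fun x y e => by simpa using e, ?_⟩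
    refine hn.imp fun {x y} hxy => ?_
    simp only [Function.onFun, List.disjoint_left, List.mem_map, List.mem_range]
    rintro i ⟨r, hr, rfl⟩ ⟨r', hr', e⟩
    have := Nat.mod_lt a (show 3 > 0 by norm_num)
    omega

theorem supp_val {k a : ℕ} (h : a < 3 ^ k) : (supp 3 a).val = (suppL k a : Multiset ℕ) :=
  ((supp 3 a).nodup).ext (Multiset.coe_nodup.2 (suppL_spec k a h).1) |>.2 fun i => by
    rw [Multiset.mem_coe, (suppL_spec k a h).2]; rfl

/-- The weights of the module of weight `a`. -/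
def ex (a : ℕ) : Multiset ℤ := (supp 3 a).val.map fun i => (a : ℤ) - 2 * (i : ℕ)

/-- All weights. -/
def allW (L : Multiset ℕ) : Multiset ℤ := L.bind ex

/-- The cube of a weight, by digits. -/
def sig (k a : ℕ) : ℕ := 3 * (a % 3 ^ k) + a / 3 ^ k

theorem sig_facts {k a : ℕ} (h : a % 2 = 0) (ha : a + 3 ≤ 3 ^ (k + 1)) :
    sig k a % 2 = 0 ∧ sig k a + 3 ≤ 3 ^ (k + 1) := by
  have hQ : 3 ^ k % 2 = 1 := Nat.pow_mod 3 k 2 ▸ by simp
  have e1 := Nat.div_add_mod a (3 ^ k)
  have e2 := Nat.mod_lt a (pow_pos (show 0 < 3 by norm_num) k)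
  have hd : a / 3 ^ k < 3 := Nat.div_lt_of_lt_mul (by rw [← pow_succ]; omega)
  rw [pow_succ] at ha ⊢
  simp only [sig]
  generalize a / 3 ^ k = d at *
  generalize a % 3 ^ k = x at *
  generalize 3 ^ k = Q at *
  interval_cases d <;> omega

theorem digit_facts {x d : ℕ} (hd : d < 3) : (3 * x + d) % 3 = d ∧ (3 * x + d) / 3 = x :=
  ⟨by omega, by omega⟩

theorem sig_injOn {k a b : ℕ} (ha : a < 3 ^ (k + 1)) (hb : b < 3 ^ (k + 1)) (e : sig k a = sig k b) :
    a = b := by
  have hd : a / 3 ^ k < 3 := Nat.div_lt_of_lt_mul (by rwa [← pow_succ])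
  have hd' : b / 3 ^ k < 3 := Nat.div_lt_of_lt_mul (by rwa [← pow_succ])
  have k3 := congrArg (· % 3) e
  have k4 := congrArg (· / 3) e
  simp only [sig, (digit_facts hd).1, (digit_facts hd').1] at k3
  simp only [sig, (digit_facts hd).2, (digit_facts hd').2] at k4
  have e2 : a / 3 ^ k = b / 3 ^ k := k3
  have e1 : a % 3 ^ k = b % 3 ^ k := k4
  rw [← Nat.div_add_mod a (3 ^ k), ← Nat.div_add_mod b (3 ^ k), e1, e2]

theorem sig_residues {k a : ℕ} (ha : a < 3 ^ (k + 1)) (m : ℤ) (g : ℕ → ℕ → ℕ)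
    (hg : ∀ d j, j ≤ d → g d j ≤ d ∧ g d (g d j) = j)
    (hm : ∀ d j : ℕ, j ≤ d → m ∣ ((d : ℤ) - 2 * (g d j : ℕ)) - 3 ^ (k + 1) * ((d : ℤ) - 2 * (j : ℕ))) :
    (ex (sig k a)).map (· % m) = (ex a).map (fun e => (3 * e) % m) := by
  have hd : a / 3 ^ k < 3 := Nat.div_lt_of_lt_mul (by rwa [← pow_succ])
  have hd3 : sig k a % 3 = a / 3 ^ k := (digit_facts hd).1
  have hd4 : sig k a / 3 = a % 3 ^ k := (digit_facts hd).2
  set τ : ℕ → ℕ := fun i => 3 * (i % 3 ^ k) + g (a / 3 ^ k) (i / 3 ^ k) with hτ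
  have hin : ∀ i ∈ supp 3 a, i / 3 ^ k ≤ a / 3 ^ k ∧ i % 3 ^ k ∈ supp 3 (a % 3 ^ k) := fun i hi => by
    have := (mem_supp_split k a i).1 hi
    exact ⟨(mem_supp_lt hd).1 this.2, this.1⟩
  have himg : (supp 3 (sig k a)).val = (supp 3 a).val.map τ := by
    have hinj : Set.InjOn τ ↑(supp 3 a) := by
      intro x hx y hy e
      obtain ⟨x1, -⟩ := hin x hx
      obtain ⟨y1, -⟩ := hin y hy
      have gx := hg _ _ x1
      have gy := hg _ _ y1
      simp only [hτ] at e
      have e1 : x % 3 ^ k = y % 3 ^ k := by omega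
      have e2 : g (a / 3 ^ k) (x / 3 ^ k) = g (a / 3 ^ k) (y / 3 ^ k) := by omega
      rw [← Nat.div_add_mod x (3 ^ k), ← Nat.div_add_mod y (3 ^ k), e1, ← gx.2, ← gy.2, e2]
    rw [← Finset.image_val_of_injOn hinj]
    congr 1
    ext i
    rw [Finset.mem_image, mem_supp_step, hd3, hd4]
    constructor
    · rintro ⟨h1, h2⟩
      have hlt : i / 3 < 3 ^ k :=
        lt_of_le_of_lt (mem_supp.1 h2).1 (Nat.mod_lt _ (pow_pos (by norm_num) k))
      obtain ⟨g1, g2⟩ := hg _ _ h1
      refine ⟨i / 3 + 3 ^ k * g (a / 3 ^ k) (i % 3), ?_, ?_⟩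
      · rw [mem_supp_split k, Nat.add_mul_mod_self_left, Nat.mod_eq_of_lt hlt,
          Nat.add_mul_div_left _ _ (pow_pos (by norm_num) k), Nat.div_eq_of_lt hlt, zero_add]
        exact ⟨h2, (mem_supp_lt hd).2 g1⟩
      · simp only [hτ, Nat.add_mul_mod_self_left, Nat.mod_eq_of_lt hlt,
          Nat.add_mul_div_left _ _ (pow_pos (show 0 < 3 by norm_num) k), Nat.div_eq_of_lt hlt,
          zero_add, g2]
        exact Nat.div_add_mod i 3
    · rintro ⟨x, hx, rfl⟩
      obtain ⟨x1, x2⟩ := hin x hx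
      have gx := (hg _ _ x1).1
      simp only [hτ]
      rw [show (3 * (x % 3 ^ k) + g (a / 3 ^ k) (x / 3 ^ k)) / 3 = x % 3 ^ k by omega]
      exact ⟨by omega, x2⟩
  rw [ex, ex, Multiset.map_map, Multiset.map_map, himg, Multiset.map_map]
  refine Multiset.map_congr rfl fun i hi => ?_
  obtain ⟨i1, -⟩ := hin i hi
  obtain ⟨t, ht⟩ := hm _ _ i1
  simp only [Function.comp_apply]
  rw [Int.emod_eq_emod_iff_emod_sub_eq_zero]
  refine Int.emod_eq_zero_of_dvd ⟨t, ?_⟩
  have ea := Nat.div_add_mod a (3 ^ k)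
  have ei := Nat.div_add_mod i (3 ^ k)
  have ea' : (a : ℤ) = 3 ^ k * ((a / 3 ^ k : ℕ) : ℤ) + ((a % 3 ^ k : ℕ) : ℤ) := by
    exact_mod_cast ea.symm
  have ei' : (i : ℤ) = 3 ^ k * ((i / 3 ^ k : ℕ) : ℤ) + ((i % 3 ^ k : ℕ) : ℤ) := by
    exact_mod_cast ei.symm
  rw [← ht, ea', ei', pow_succ]
  simp only [sig, hτ]
  push_cast
  ring

theorem allW_map (L : Multiset ℕ) (f : ℤ → ℤ) : (allW L).map f = L.bind fun a => (ex a).map f :=
  Multiset.map_bind _ _ _

theorem allW_sig_minus {k : ℕ} {L : Multiset ℕ} (hL : ∀ a ∈ L, a < 3 ^ (k + 1)) :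
    (allW (L.map (sig k))).map (· % ((3 : ℤ) ^ (k + 1) - 1)) =
      (allW L).map (fun e => (3 * e) % ((3 : ℤ) ^ (k + 1) - 1)) := by
  rw [allW_map, allW_map, Multiset.bind_map]
  refine Multiset.bind_congr fun a ha => sig_residues (hL a ha) _ (fun _ j => j)
    (fun _ _ h => ⟨h, rfl⟩) fun d j _ => ⟨-((d : ℤ) - 2 * j), by ring⟩

theorem allW_sig_plus {k : ℕ} {L : Multiset ℕ} (hL : ∀ a ∈ L, a < 3 ^ (k + 1)) :
    (allW (L.map (sig k))).map (· % ((3 : ℤ) ^ (k + 1) + 1)) =
      (allW L).map (fun e => (3 * e) % ((3 : ℤ) ^ (k + 1) + 1)) := by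
  rw [allW_map, allW_map, Multiset.bind_map]
  refine Multiset.bind_congr fun a ha => sig_residues (hL a ha) _ (fun d j => d - j)
    (fun _ _ h => ⟨Nat.sub_le _ _, Nat.sub_sub_self h⟩)
    fun d j h => ⟨-((d : ℤ) - 2 * j), by rw [Nat.cast_sub h]; ring⟩

theorem mem_ex {a : ℕ} {e : ℤ} (he : e ∈ ex a) :
    -(a : ℤ) ≤ e ∧ e ≤ (a : ℤ) ∧ 2 ∣ (a : ℤ) - e := by
  obtain ⟨i, hi, rfl⟩ := Multiset.mem_map.1 he
  have := (mem_supp.1 (show i ∈ supp 3 a from hi)).1
  exact ⟨by omega, by omega, ⟨i, by ring⟩⟩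

theorem ex_neg (a : ℕ) : (ex a).map (- ·) = ex a := by
  have h : (supp 3 a).val.map (fun i => a - i) = (supp 3 a).val := by
    have hinj : Set.InjOn (fun i => a - i) ↑(supp 3 a) := fun x hx y hy e => by
      have := (mem_supp.1 (Finset.mem_coe.1 hx)).1
      have := (mem_supp.1 (Finset.mem_coe.1 hy)).1
      simp only at e
      omega
    rw [← Finset.image_val_of_injOn hinj]
    congr 1
    ext i
    rw [Finset.mem_image]
    constructor
    · rintro ⟨x, hx, rfl⟩
      obtain ⟨x1, x2⟩ := mem_supp.1 hx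
      exact mem_supp.2 ⟨Nat.sub_le _ _, by rwa [Nat.choose_symm x1]⟩
    · intro hi
      obtain ⟨i1, i2⟩ := mem_supp.1 hi
      exact ⟨a - i, mem_supp.2 ⟨Nat.sub_le _ _, by rwa [Nat.choose_symm i1]⟩, Nat.sub_sub_self i1⟩
  conv_rhs => rw [ex, ← h]
  rw [ex, Multiset.map_map, Multiset.map_map]
  refine Multiset.map_congr rfl fun i hi => ?_
  have := (mem_supp.1 (show i ∈ supp 3 a from hi)).1
  simp only [Function.comp_apply, Nat.cast_sub this]
  ring

theorem allW_neg (L : Multiset ℕ) : (allW L).map (- ·) = allW L := by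
  rw [allW_map]
  exact Multiset.bind_congr fun a _ => ex_neg a

theorem count_ex_self (a : ℕ) : (ex a).count (a : ℤ) = 1 := by
  rw [ex, Multiset.count_map]
  have : (supp 3 a).val.filter (fun i : ℕ => (a : ℤ) = (a : ℤ) - 2 * (i : ℕ)) =
      (supp 3 a).val.filter (fun i => 0 = i) := Multiset.filter_congr fun i _ => by omega
  rw [this, ← Multiset.count_eq_card_filter_eq,
    Multiset.count_eq_one_of_mem (supp 3 a).nodup]
  exact mem_supp.2 ⟨Nat.zero_le _, by simp⟩

theorem count_ex_eq_zero {a : ℕ} {e : ℤ} (h : (a : ℤ) < e) : (ex a).count e = 0 :=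
  Multiset.count_eq_zero.2 fun he => absurd (mem_ex he).2.1 (not_le.2 h)

theorem count_map_mod (W : Multiset ℤ) (m r : ℤ) :
    (W.map (· % m)).count r = (W.filter fun x => r = x % m).card := by
  rw [Multiset.count_map]

theorem count_two {W : Multiset ℤ} {m e e' : ℤ} (hne : e ≠ e')
    (h : ∀ x ∈ W, (e % m = x % m ↔ e = x ∨ e' = x)) :
    (W.map (· % m)).count (e % m) = W.count e + W.count e' := by
  rw [count_map_mod, Multiset.filter_congr h, Multiset.count_eq_card_filter_eq,
    Multiset.count_eq_card_filter_eq, ← Multiset.card_add]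
  congr 1
  rw [Multiset.filter_add_filter, show W.filter (fun x => e = x ∧ e' = x) = 0 from
    Multiset.filter_eq_nil.2 fun x _ hx => hne (hx.1.trans hx.2.symm), add_zero]

theorem count_one {W : Multiset ℤ} {m e : ℤ} (h : ∀ x ∈ W, (e % m = x % m ↔ e = x)) :
    (W.map (· % m)).count (e % m) = W.count e := by
  rw [count_map_mod, Multiset.filter_congr h, Multiset.count_eq_card_filter_eq]

theorem emod_eq_iff_small {m e x : ℤ} (hm : 0 < m) (h : -(2 * m) < e - x) (h' : e - x < 2 * m) :
    e % m = x % m ↔ e = x ∨ e - x = m ∨ e - x = -m := by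
  rw [Int.emod_eq_emod_iff_emod_sub_eq_zero]
  constructor
  · intro hh
    obtain ⟨t, ht⟩ := Int.dvd_of_emod_eq_zero hh
    have h1 : t < 2 := lt_of_mul_lt_mul_left (by linarith : m * t < m * 2) hm.le
    have h2 : -2 < t := lt_of_mul_lt_mul_left (by linarith : m * -2 < m * t) hm.le
    interval_cases t <;> omega
  · rintro (rfl | hh | hh)
    · simp
    · simp [hh]
    · simp [hh]

/-- The weights below `q - 1` are determined by their residues for the two tori. -/
theorem eq_of_residues {q : ℕ} (hq : q % 2 = 1) {L L' : Multiset ℕ}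
    (hL : ∀ a ∈ L, a % 2 = 0 ∧ a + 3 ≤ q) (hL' : ∀ a ∈ L', a % 2 = 0 ∧ a + 3 ≤ q)
    (hminus : (allW L).map (· % ((q : ℤ) - 1)) = (allW L').map (· % ((q : ℤ) - 1)))
    (hplus : (allW L).map (· % ((q : ℤ) + 1)) = (allW L').map (· % ((q : ℤ) + 1))) : L = L' := by
  have hbound : ∀ M : Multiset ℕ, (∀ a ∈ M, a % 2 = 0 ∧ a + 3 ≤ q) →
      ∀ x ∈ allW M, 2 ∣ x ∧ -((q : ℤ) - 3) ≤ x ∧ x ≤ (q : ℤ) - 3 := by
    intro M hM x hx
    obtain ⟨a, ha, hx⟩ := Multiset.mem_bind.1 hx
    obtain ⟨h1, h2, h3⟩ := mem_ex hx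
    have := hM a ha
    exact ⟨by omega, by omega, by omega⟩
  let D : ℤ → ℤ := fun e => ((allW L).count e : ℤ) - (allW L').count e
  have hzero : ∀ e : ℕ, D e = 0 := by
    intro e
    induction e using Nat.strong_induction_on with
    | _ e ih =>
      by_cases hin : e % 2 = 0 ∧ e + 3 ≤ q
      swap
      · have hno : ∀ M : Multiset ℕ, (∀ a ∈ M, a % 2 = 0 ∧ a + 3 ≤ q) →
            (allW M).count (e : ℤ) = 0 := fun M hM => Multiset.count_eq_zero.2 fun he => by
          have := hbound M hM _ he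
          omega
        simp only [D, hno L hL, hno L' hL', sub_self]
      obtain ⟨he2, he3⟩ := hin
      by_cases h0 : e = 0
      · subst h0
        have key : ∀ M : Multiset ℕ, (∀ a ∈ M, a % 2 = 0 ∧ a + 3 ≤ q) →
            ((allW M).map (· % ((q : ℤ) - 1))).count (((0 : ℕ) : ℤ) % ((q : ℤ) - 1)) =
              (allW M).count ((0 : ℕ) : ℤ) := fun M hM => count_one fun x hx => by
          have := hbound M hM x hx
          rw [emod_eq_iff_small (by omega) (by omega) (by omega)]
          omega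
        simp only [D]
        rw [← key L hL, ← key L' hL', hminus, sub_self]
      by_cases h2 : e = 2
      · subst h2
        have key : ∀ M : Multiset ℕ, (∀ a ∈ M, a % 2 = 0 ∧ a + 3 ≤ q) →
            ((allW M).map (· % ((q : ℤ) + 1))).count (((2 : ℕ) : ℤ) % ((q : ℤ) + 1)) =
              (allW M).count ((2 : ℕ) : ℤ) := fun M hM => count_one fun x hx => by
          have := hbound M hM x hx
          rw [emod_eq_iff_small (by omega) (by omega) (by omega)]
          omega
        simp only [D]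
        rw [← key L hL, ← key L' hL', hplus, sub_self]
      have key1 : ∀ M : Multiset ℕ, (∀ a ∈ M, a % 2 = 0 ∧ a + 3 ≤ q) →
          ((allW M).map (· % ((q : ℤ) + 1))).count ((e : ℤ) % ((q : ℤ) + 1)) =
            (allW M).count (e : ℤ) + (allW M).count ((e : ℤ) - ((q : ℤ) + 1)) := fun M hM =>
        count_two (by omega) fun x hx => by
          have := hbound M hM x hx
          rw [emod_eq_iff_small (by omega) (by omega) (by omega)]
          omega
      have key2 : ∀ M : Multiset ℕ, (∀ a ∈ M, a % 2 = 0 ∧ a + 3 ≤ q) →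
          ((allW M).map (· % ((q : ℤ) - 1))).count (((e - 2 : ℕ) : ℤ) % ((q : ℤ) - 1)) =
            (allW M).count ((e - 2 : ℕ) : ℤ) + (allW M).count ((e : ℤ) - ((q : ℤ) + 1)) := fun M hM =>
        count_two (by omega) fun x hx => by
          have := hbound M hM x hx
          rw [emod_eq_iff_small (by omega) (by omega) (by omega)]
          omega
      have a1 := key1 L hL
      have a2 := key1 L' hL'
      have b1 := key2 L hL
      have b2 := key2 L' hL'
      rw [hplus] at a1
      rw [hminus] at b1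
      have hi := ih (e - 2) (by omega)
      simp only [D] at hi ⊢
      omega
  have hcount : ∀ e : ℕ, (allW L).count (e : ℤ) = (allW L').count (e : ℤ) := fun e => by
    have := hzero e
    simp only [D] at this
    omega
  refine Multiset.ext.2 fun a => ?_
  suffices key : ∀ d a : ℕ, q ≤ a + d → L.count a = L'.count a from key q a (Nat.le_add_left _ _)
  intro d
  induction d with
  | zero =>
    intro a ha
    rw [Multiset.count_eq_zero.2 fun h => by have := hL a h; omega,
      Multiset.count_eq_zero.2 fun h => by have := hL' a h; omega]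
  | succ d ih =>
    intro a ha
    have hsplit : ∀ M : Multiset ℕ, (allW M).count (a : ℤ) =
        (allW (M.filter (a < ·))).count (a : ℤ) + M.count a := by
      intro M
      conv_lhs => rw [← Multiset.filter_add_not (a < ·) M, allW, Multiset.add_bind,
        Multiset.count_add]
      congr 1
      rw [Multiset.count_bind]
      have hmap : (M.filter fun x => ¬ a < x).map (fun x => (ex x).count (a : ℤ)) =
          (M.filter fun x => ¬ a < x).map (fun x => if x = a then 1 else 0) :=
        Multiset.map_congr rfl fun x hx => by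
          have hxa := (Multiset.mem_filter.1 hx).2
          by_cases h : x = a
          · rw [if_pos h, h, count_ex_self]
          · rw [if_neg h, count_ex_eq_zero (by omega)]
      rw [hmap, ← Multiset.count_filter_of_pos (p := fun x => ¬ a < x) (lt_irrefl a)]
      induction (M.filter fun x => ¬ a < x) using Multiset.induction_on with
      | empty => simp
      | cons x T ih' =>
        rw [Multiset.map_cons, Multiset.sum_cons, ih', Multiset.count_cons]
        by_cases h : x = a
        · simp [h, add_comm]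
        · simp [h, Ne.symm h]
    have hfilt : L.filter (a < ·) = L'.filter (a < ·) := Multiset.ext.2 fun b => by
      rw [Multiset.count_filter, Multiset.count_filter]
      split_ifs with hb
      · exact ih b (by omega)
      · rfl
    have h1 := hsplit L
    have h2 := hsplit L'
    rw [hfilt] at h1
    have := hcount a
    omega

/-- The base of the packed counts. -/
def base : ℕ := 65536

/-- The packed count of one weight. -/
def wt (C : List ℕ) (p : ℕ) (e : ℤ) : ℕ :=
  base ^ C.getD ((e / 2) % (p : ℤ)).toNat 0 + ((e / 2) % 2).toNat * base ^ 7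

/-- The packed count of a module. -/
def wA (n : ℕ) (C : List ℕ) (p a : ℕ) : ℕ :=
  ((suppL n a).map fun i : ℕ => wt C p ((a : ℤ) - 2 * (i : ℕ))).sum

theorem sum_wt_ex {n a : ℕ} (C : List ℕ) (p : ℕ) (ha : a < 3 ^ n) :
    ((ex a).map (wt C p)).sum = wA n C p a := by
  rw [ex, supp_val ha, Multiset.map_map, Multiset.map_coe, Multiset.sum_coe]
  rfl

theorem card_ex {n a : ℕ} (ha : a < 3 ^ n) : (ex a).card = (suppL n a).length := by
  rw [ex, Multiset.card_map, supp_val ha, Multiset.coe_card]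

/-- The data of the orbits. -/
structure Orbits where
  /-- the exponent -/
  k : ℕ
  /-- the number of weights -/
  half : ℕ
  /-- the classes -/
  C : List ℕ
  /-- the prime -/
  p : ℕ
  /-- representatives -/
  reps : List ℕ
  /-- orbit indices -/
  orb : List ℕ
  /-- orbit positions -/
  pos : List ℕ
  /-- counts -/
  V : List (List ℕ)
  /-- dimensions -/
  D : List ℕ
  /-- certificates -/
  certs : List (List ℕ × Tree)

/-- A packed list. -/
def pack : List ℕ → ℕ
  | [] => 0
  | v :: r => v + base * pack r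

/-- The iterate of the cube. -/
def sigN (k : ℕ) : ℕ → ℕ → ℕ
  | 0, r => r
  | j + 1, r => sig k (sigN k j r)

/-- The orbit tables are correct. -/
def Orbits.okB (O : Orbits) : Bool :=
  decide (2 * O.half + 1 = 3 ^ (O.k + 1)) && decide (O.D.length = O.V.length) &&
  decide (O.V.length = O.reps.length) && O.V.all (fun v => v.length == 8) &&
  O.reps.all (fun r => decide (r % 2 = 0 ∧ r + 3 ≤ 3 ^ (O.k + 1))) &&
  (List.range O.V.length).all (fun j => decide (0 < O.D.getD j 0)) &&
  (List.range O.V.length).all (fun j => (O.V.getD j []).all fun x => decide (x ≤ O.D.getD j 0)) &&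
  O.certs.all (fun c => c.1.length == 8 && c.1.all fun x => decide (x < base)) &&
  (List.range O.half).all (fun h => decide (O.orb.getD h 0 < O.reps.length) &&
    (sigN O.k (O.pos.getD h 0) (O.reps.getD (O.orb.getD h 0) 0) == 2 * h)) &&
  (List.range O.V.length).all (fun j =>
    ((((List.range O.half).filter fun h => O.orb.getD h 0 == j).map fun h =>
      wA (O.k + 1) O.C O.p (2 * h)).sum == pack (O.V.getD j [])) &&
    ((((List.range O.half).filter fun h => O.orb.getD h 0 == j).map fun h =>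
      (suppL (O.k + 1) (2 * h)).length).sum == O.D.getD j 0))

theorem pack_eq : ∀ v : List ℕ, pack v = ∑ i ∈ Finset.range v.length, v.getD i 0 * base ^ i
  | [] => rfl
  | a :: v => by
    rw [pack, pack_eq v, List.length_cons, Finset.sum_range_succ', Finset.mul_sum, add_comm]
    simp only [List.getD_cons_succ, List.getD_cons_zero, pow_zero, mul_one, pow_succ]
    congr 1
    exact Finset.sum_congr rfl fun i _ => by ring

theorem digits_unique : ∀ (n : ℕ) (f g : ℕ → ℕ), (∀ i < n, f i < base) → (∀ i < n, g i < base) →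
    (∑ i ∈ Finset.range n, f i * base ^ i = ∑ i ∈ Finset.range n, g i * base ^ i) →
    ∀ i < n, f i = g i
  | 0, _, _, _, _, _, i, hi => absurd hi (Nat.not_lt_zero i)
  | n + 1, f, g, hf, hg, h, i, hi => by
    simp only [Finset.sum_range_succ', pow_succ, pow_zero, mul_one, ← mul_assoc, ← Finset.sum_mul] at h
    have h0 := congrArg (· % base) h
    simp only [Nat.mul_add_mod_self_right, Nat.mod_eq_of_lt (hf 0 (Nat.succ_pos n)),
      Nat.mod_eq_of_lt (hg 0 (Nat.succ_pos n))] at h0
    cases i with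
    | zero => exact h0
    | succ i =>
      refine digits_unique n (fun j => f (j + 1)) (fun j => g (j + 1))
        (fun j hj => hf (j + 1) (by omega)) (fun j hj => hg (j + 1) (by omega)) ?_ i (by omega)
      rw [h0, Nat.add_right_cancel_iff] at h
      exact Nat.eq_of_mul_eq_mul_right (show 0 < base by decide) h

theorem comb_eq : ∀ (V : List (List ℕ)) (m : ℕ → ℕ) (i : ℕ),
    comb V m i = ∑ j ∈ Finset.range V.length, m j * (V.getD j []).getD i 0
  | [], m, i => rfl
  | v :: V, m, i => by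
    rw [comb, comb_eq V, List.length_cons, Finset.sum_range_succ', add_comm]
    simp

theorem list_filter_sum (n j : ℕ) (o : ℕ → ℕ) (f : ℕ → ℕ) :
    (((List.range n).filter fun h => o h == j).map f).sum =
      ∑ h ∈ (Finset.range n).filter (fun h => o h = j), f h := by
  rw [← List.sum_toFinset f (List.nodup_range.filter _)]
  congr 1
  ext h
  simp

/-- No stable multiset of weights gives a certified count. -/
theorem kill (O : Orbits) (hO : O.okB = true) (hC : certsB O.V O.D O.certs = true) {L : Multiset ℕ}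
    (hL : ∀ a ∈ L, a % 2 = 0 ∧ a + 3 ≤ 3 ^ (O.k + 1)) (hinv : L.map (sig O.k) = L)
    (hdim : (allW L).card = 248) {c : List ℕ × Tree} (hc : c ∈ O.certs)
    (hcode : ((allW L).map (wt O.C O.p)).sum = pack c.1) : False := by
  classical
  simp only [Orbits.okB, Bool.and_eq_true, decide_eq_true_eq, List.all_eq_true, beq_iff_eq,
    List.mem_range] at hO
  obtain ⟨⟨⟨⟨⟨⟨⟨⟨⟨hhalf, hDlen⟩, hlen⟩, hV8⟩, hreps⟩, hpos⟩, hVD⟩, hcerts⟩, horb⟩, hsum⟩ := hO
  set n := O.k + 1 with hn
  have hlt : ∀ a ∈ L, a < 3 ^ n := fun a ha => by have := hL a ha; omega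
  let M : ℕ → ℕ := fun j => L.count (O.reps.getD j 0)
  have hstep : ∀ r, r < 3 ^ n → L.count (sig O.k r) = L.count r := by
    intro r hr
    conv_lhs => rw [← hinv]
    rw [Multiset.count_map, Multiset.count_eq_card_filter_eq]
    exact congrArg _ (Multiset.filter_congr fun x hx =>
      ⟨fun e => sig_injOn hr (hlt x hx) e, fun e => by rw [e]⟩)
  have hiter : ∀ j r, r % 2 = 0 → r + 3 ≤ 3 ^ n →
      (sigN O.k j r % 2 = 0 ∧ sigN O.k j r + 3 ≤ 3 ^ n) ∧ L.count (sigN O.k j r) = L.count r := by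
    intro j r h1 h2
    induction j with
    | zero => exact ⟨⟨h1, h2⟩, rfl⟩
    | succ j ih =>
      obtain ⟨⟨i1, i2⟩, i3⟩ := ih
      exact ⟨sig_facts i1 i2, (hstep _ (by omega)).trans i3⟩
  have hcnt : ∀ h < O.half, L.count (2 * h) = M (O.orb.getD h 0) := by
    intro h hh
    obtain ⟨h1, h2⟩ := horb h hh
    have hr := hreps (O.reps.getD (O.orb.getD h 0) 0) (by
      rw [List.getD_eq_getElem _ _ h1]; exact List.getElem_mem h1)
    rw [← h2]
    exact (hiter _ _ hr.1 hr.2).2
  have hsplit : ∀ (f : ℕ → ℕ), (L.map f).sum =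
      ∑ j ∈ Finset.range O.V.length, M j *
        (((List.range O.half).filter fun h => O.orb.getD h 0 == j).map fun h => f (2 * h)).sum := by
    intro f
    rw [Finset.sum_multiset_map_count, Finset.sum_subset
      (s₂ := (Finset.range O.half).image (2 * ·))]
    rotate_left
    · intro a ha
      have := hL a (Multiset.mem_toFinset.1 ha)
      exact Finset.mem_image.2 ⟨a / 2, Finset.mem_range.2 (by omega), by omega⟩
    · intro a _ ha
      rw [Multiset.count_eq_zero.2 fun h => ha (Multiset.mem_toFinset.2 h), zero_smul]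
    rw [Finset.sum_image fun x _ y _ e => by simpa using e,
      ← Finset.sum_fiberwise_of_maps_to (g := fun h => O.orb.getD h 0)
        (t := Finset.range O.V.length) fun h hh =>
          Finset.mem_range.2 (hlen ▸ (horb h (Finset.mem_range.1 hh)).1)]
    refine Finset.sum_congr rfl fun j _ => ?_
    rw [list_filter_sum, Finset.mul_sum]
    refine Finset.sum_congr rfl fun h hh => ?_
    obtain ⟨h1, h2⟩ := Finset.mem_filter.1 hh
    rw [smul_eq_mul, hcnt h (Finset.mem_range.1 h1), h2]
  have hD : ∑ j ∈ Finset.range O.V.length, M j * O.D.getD j 0 = 248 := by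
    rw [← hdim, allW, Multiset.card_bind,
      Multiset.map_congr rfl fun a ha => show (Multiset.card ∘ ex) a = (suppL n a).length from
        card_ex (hlt a ha), hsplit]
    exact Finset.sum_congr rfl fun j hj => by rw [(hsum j (Finset.mem_range.1 hj)).2]
  have hMD : ∀ j < O.V.length, M j * O.D.getD j 0 ≤ 248 := fun j hj =>
    hD ▸ Finset.single_le_sum (f := fun j => M j * O.D.getD j 0) (fun _ _ => Nat.zero_le _)
      (Finset.mem_range.2 hj)
  have hW : ((allW L).map (wt O.C O.p)).sum =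
      ∑ i ∈ Finset.range 8, comb O.V M i * base ^ i := by
    rw [allW, Multiset.map_bind, Multiset.sum_bind,
      Multiset.map_congr rfl fun a ha => sum_wt_ex O.C O.p (hlt a ha), hsplit]
    simp only [comb_eq, Finset.sum_mul]
    rw [Finset.sum_comm]
    refine Finset.sum_congr rfl fun j hj => ?_
    have hj' := Finset.mem_range.1 hj
    rw [(hsum j hj').1, pack_eq, hV8 _ (by
      rw [List.getD_eq_getElem _ _ hj']; exact List.getElem_mem hj'), Finset.mul_sum]
    exact Finset.sum_congr rfl fun i _ => by ring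
  obtain ⟨hc8, hcb⟩ := hcerts c hc
  rw [hW, pack_eq, hc8] at hcode
  have hcomb : ∀ i, comb O.V M i ≤ 248 := by
    intro i
    rw [comb_eq, ← hD]
    refine Finset.sum_le_sum fun j hj => Nat.mul_le_mul_left _ ?_
    have hj' := Finset.mem_range.1 hj
    by_cases hi : i < (O.V.getD j []).length
    · refine hVD j hj' _ ?_
      rw [List.getD_eq_getElem _ _ hi]
      exact List.getElem_mem hi
    · rw [List.getD_eq_default _ _ (not_lt.1 hi)]
      exact Nat.zero_le _
  have hdig := digits_unique 8 (comb O.V M) (fun i => c.1.getD i 0)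
    (fun i _ => lt_of_le_of_lt (hcomb i) (by decide))
    (fun i hi => hcb _ (by rw [List.getD_eq_getElem _ _ (hc8.symm ▸ hi)]; exact List.getElem_mem _))
    hcode
  refine certsB_sound hC hDlen hc M (fun j hj => ?_) fun i => ?_
  · have h0 := hpos j hj
    rw [hi0, List.getD_eq_getElem _ _ (by simpa [hDlen] using hj), List.getElem_map,
      ← List.getD_eq_getElem O.D 0 (by omega), Nat.le_div_iff_mul_le h0]
    exact hMD j hj
  · by_cases hi : i < 8
    · exact hdig i hi
    · rw [comb_eq, List.getD_eq_default _ _ (by omega)]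
      refine Finset.sum_eq_zero fun j hj => ?_
      rw [List.getD_eq_default _ _ (by
        rw [hV8 _ (by rw [List.getD_eq_getElem _ _ (Finset.mem_range.1 hj)]; exact List.getElem_mem _)]
        omega), mul_zero]

end CfsgLib.E8Small
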